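import Cfsg.Agent.Lib.Helper44.SUb

/-!
# The unipotent radical and the Levi factor of the stabiliser of a maximal isotropic subspace in an
odd-dimensional unitary group
-/

set_option autoImplicit false
set_option linter.unusedSectionVars false

namespace Cfsg.Agent.Lib.Helper44

open Matrix Cfsg.Agent.Lib.Helper17

section

variable {F : Type*} [Field F] [Fintype F] {q : ℕ} (hF : Fintype.card F = q ^ 2)
  {l : Type} [Fintype l] [DecidableEq l]

/-- vectors of the odd-dimensional space -/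
def mk3 (x y : l → F) (t : F) : (l ⊕ l) ⊕ Unit → F := Sum.elim (Sum.elim x y) (fun _ => t)

omit [Fintype F] [Fintype l] [DecidableEq l] in
theorem mk3_surj (w : (l ⊕ l) ⊕ Unit → F) : ∃ x y t, w = mk3 x y t := by
  refine ⟨fun i => w (Sum.inl (Sum.inl i)), fun i => w (Sum.inl (Sum.inr i)), w (Sum.inr ()), ?_⟩
  funext i
  rcases i with (i | i) | i <;> rfl

omit [Fintype F] [Fintype l] [DecidableEq l] in
theorem mk3_add (x y x' y' : l → F) (t t' : F) :
    mk3 x y t + mk3 x' y' t' = mk3 (x + x') (y + y') (t + t') := by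
  funext i
  rcases i with (i | i) | i <;> rfl

omit [Fintype F] [Fintype l] [DecidableEq l] in
theorem smul_mk3 (c : F) (x y : l → F) (t : F) :
    c • mk3 x y t = mk3 (c • x) (c • y) (c * t) := by
  funext i
  rcases i with (i | i) | i <;> rfl

/-- the Gram matrix: hyperbolic plus an anisotropic line -/
def J3 (l : Type) [Fintype l] [DecidableEq l] (F : Type*) [Field F] :
    Matrix ((l ⊕ l) ⊕ Unit) ((l ⊕ l) ⊕ Unit) F :=
  fromBlocks (Jh l F) 0 0 1

omit [Fintype F] in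
theorem J3_mul_self : J3 l F * J3 l F = 1 := by
  unfold J3
  rw [fromBlocks_multiply, Jh_mul_self]
  simp

theorem J3_herm : ((J3 l F).map (frobQ hF))ᵀ = J3 l F := by
  unfold J3
  rw [fromBlocks_map, fromBlocks_transpose, Jh_herm]
  simp

omit [Fintype F] [Fintype l] [DecidableEq l] in
theorem fv_mk3 (x y : l → F) (t : F) : fv q (mk3 x y t) = mk3 (fv q x) (fv q y) (t ^ q) := by
  funext i
  rcases i with (i | i) | i <;> rfl

omit [Fintype F] [DecidableEq l] in
theorem mk3_dot (x y x' y' : l → F) (t t' : F) :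
    mk3 x y t ⬝ᵥ mk3 x' y' t' = x ⬝ᵥ x' + y ⬝ᵥ y' + t * t' := by
  simp [mk3, dotProduct, Fintype.sum_sum_type]

omit [Fintype F] in
theorem blocks3_mulVec (A B C D : Matrix l l F) (b : l ⊕ l → F) (c : l ⊕ l → F) (δ : F)
    (x y : l → F) (t : F) :
    fromBlocks (fromBlocks A B C D) (replicateCol Unit b) (replicateRow Unit c) (δ • 1) *ᵥ mk3 x y t
      = mk3 (A *ᵥ x + B *ᵥ y + t • (b ∘ Sum.inl)) (C *ᵥ x + D *ᵥ y + t • (b ∘ Sum.inr))
        (c ⬝ᵥ Sum.elim x y + δ * t) := by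
  unfold mk3
  rw [fromBlocks_mulVec, Sum.elim_comp_inl, Sum.elim_comp_inr, fromBlocks_mulVec, Sum.elim_comp_inl,
    Sum.elim_comp_inr]
  funext i
  rcases i with (i | i) | i
  · simp [mulVec, dotProduct, mul_comm]
  · simp [mulVec, dotProduct, mul_comm]
  · simp [mulVec, dotProduct]

omit [Fintype F] in
theorem J3_mulVec (x y : l → F) (t : F) : J3 l F *ᵥ mk3 x y t = mk3 y x t := by
  have : J3 l F = fromBlocks (fromBlocks 0 1 1 0) (replicateCol Unit 0) (replicateRow Unit 0)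
      ((1 : F) • 1) := by
    rw [one_smul]
    rfl
  rw [this, blocks3_mulVec]
  simp

omit [Fintype F] in
theorem fJ_J3 (x y x' y' : l → F) (t t' : F) :
    fJ q (J3 l F) (mk3 x y t) (mk3 x' y' t') = x ⬝ᵥ fv q y' + y ⬝ᵥ fv q x' + t * t' ^ q := by
  unfold fJ
  rw [fv_mk3, J3_mulVec, mk3_dot]

/-- matrices of the unipotent radical -/
def uBmat (q : ℕ) (s : l → F) (S : Matrix l l F) : Matrix ((l ⊕ l) ⊕ Unit) ((l ⊕ l) ⊕ Unit) F :=
  fromBlocks (fromBlocks 1 S 0 1) (replicateCol Unit (Sum.elim s 0))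
    (replicateRow Unit (Sum.elim 0 (-fv q s))) 1

omit [Fintype F] in
theorem uBmat_mulVec (s : l → F) (S : Matrix l l F) (x y : l → F) (t : F) :
    uBmat q s S *ᵥ mk3 x y t = mk3 (x + S *ᵥ y + t • s) y (t - fv q s ⬝ᵥ y) := by
  have : uBmat q s S = fromBlocks (fromBlocks 1 S 0 1) (replicateCol Unit (Sum.elim s 0))
    (replicateRow Unit (Sum.elim 0 (-fv q s))) ((1 : F) • 1) := by
    rw [one_smul]; rfl
  rw [this, blocks3_mulVec]
  congr 1
  · simp
  · simp
  · rw [sumElim_dotProduct_sumElim, zero_dotProduct, neg_dotProduct]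
    ring

omit [Fintype F] in
theorem uBmat_det (s : l → F) (S : Matrix l l F) : (uBmat q s S).det = 1 := by
  unfold uBmat
  rw [det_fromBlocks_one₂₂]
  have : (fromBlocks 1 S 0 1 : Matrix (l ⊕ l) (l ⊕ l) F) - replicateCol Unit (Sum.elim s 0) *
      replicateRow Unit (Sum.elim 0 (-fv q s)) = fromBlocks 1 (S + vecMulVec s (fv q s)) 0 1 := by
    ext i j
    rcases i with i | i <;> rcases j with j | j <;> simp [Matrix.mul_apply, vecMulVec_apply]
  rw [this, det_fromBlocks_zero₂₁]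
  simp

include hF in
theorem uBmat_mul (s t : l → F) (S T : Matrix l l F) :
    uBmat q s S * uBmat q t T = uBmat q (s + t) (S + T - vecMulVec s (fv q t)) := by
  rw [Matrix.ext_iff_mulVec]
  intro w
  obtain ⟨x, y, τ, rfl⟩ := mk3_surj w
  rw [← mulVec_mulVec, uBmat_mulVec, uBmat_mulVec, uBmat_mulVec, fv_add hF]
  congr 1
  · rw [sub_mulVec, add_mulVec, vecMulVec_mulVec, sub_smul, smul_add, op_smul_eq_smul]
    abel
  · rw [add_dotProduct]
    ring

theorem uBmat_preserves (s : l → F) (S : Matrix l l F)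
    (hS : S + dag hF S = -vecMulVec s (fv q s)) (u v : (l ⊕ l) ⊕ Unit → F) :
    fJ q (J3 l F) (uBmat q s S *ᵥ u) (uBmat q s S *ᵥ v) = fJ q (J3 l F) u v := by
  obtain ⟨x, y, t, rfl⟩ := mk3_surj u
  obtain ⟨x', y', t', rfl⟩ := mk3_surj v
  rw [uBmat_mulVec, uBmat_mulVec, fJ_J3, fJ_J3, fv_add hF, fv_add hF, fv_smul, fv_mulVec hF,
    sub_pow_q hF, dot_pow_q hF, fv_fv hF]
  have key : (S *ᵥ y) ⬝ᵥ fv q y' + y ⬝ᵥ (S.map (frobQ hF) *ᵥ fv q y')
      = -((fv q s ⬝ᵥ y) * (s ⬝ᵥ fv q y')) := by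
    have e1 : y ⬝ᵥ (S.map (frobQ hF) *ᵥ fv q y') = (dag hF S *ᵥ y) ⬝ᵥ fv q y' := by
      rw [mulVec_dot]
      unfold dag
      rw [transpose_transpose]
    rw [e1, ← add_dotProduct, ← add_mulVec, hS, neg_mulVec, vecMulVec_mulVec, neg_dotProduct,
      op_smul_eq_smul, smul_dotProduct, smul_eq_mul]
  simp only [add_dotProduct, dotProduct_add, smul_dotProduct, dotProduct_smul, smul_eq_mul]
  rw [dotProduct_comm y (fv q s)]
  linear_combination key

/-- elements of the unipotent radical -/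
def uB (s : l → F) (S : Matrix l l F) (hS : S + dag hF S = -vecMulVec s (fv q s)) :
    UJ q (J3 l F) :=
  ⟨⟨uBmat q s S, uBmat_det s S⟩, uBmat_preserves hF s S hS⟩

/-- matrices of the Levi factor -/
def levmat (M M' : Matrix l l F) (δ : F) : Matrix ((l ⊕ l) ⊕ Unit) ((l ⊕ l) ⊕ Unit) F :=
  fromBlocks (fromBlocks M 0 0 (dag hF M')) 0 0 (δ • 1)

theorem levmat_mulVec (M M' : Matrix l l F) (δ : F) (x y : l → F) (t : F) :
    levmat hF M M' δ *ᵥ mk3 x y t = mk3 (M *ᵥ x) (dag hF M' *ᵥ y) (δ * t) := by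
  have : levmat hF M M' δ = fromBlocks (fromBlocks M 0 0 (dag hF M')) (replicateCol Unit 0)
      (replicateRow Unit 0) (δ • 1) := by
    unfold levmat
    congr 1
  rw [this, blocks3_mulVec]
  simp

theorem levmat_det (M M' : Matrix l l F) (δ : F) :
    (levmat hF M M' δ).det = M.det * M'.det ^ q * δ := by
  unfold levmat
  rw [det_fromBlocks_zero₂₁, det_fromBlocks_zero₂₁]
  unfold dag
  rw [det_transpose]
  have : (M'.map (frobQ hF)).det = frobQ hF M'.det := by
    rw [RingHom.map_det]; rfl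
  rw [this, frobQ_apply]
  simp

theorem levmat_preserves (M M' : Matrix l l F) (δ : F) (h : M' * M = 1) (hδ : δ * δ ^ q = 1)
    (u v : (l ⊕ l) ⊕ Unit → F) :
    fJ q (J3 l F) (levmat hF M M' δ *ᵥ u) (levmat hF M M' δ *ᵥ v) = fJ q (J3 l F) u v := by
  obtain ⟨x, y, t, rfl⟩ := mk3_surj u
  obtain ⟨x', y', t', rfl⟩ := mk3_surj v
  rw [levmat_mulVec, levmat_mulVec, fJ_J3, fJ_J3, fv_mulVec hF, fv_mulVec hF, mulVec_dot, mulVec_dot,
    mulVec_mulVec, mulVec_mulVec]
  have e1 : Mᵀ * (dag hF M').map (frobQ hF) = 1 := by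
    unfold dag
    rw [← transpose_map, map_map_frob, ← transpose_mul, h, transpose_one]
  have e2 : (dag hF M')ᵀ * M.map (frobQ hF) = 1 := by
    unfold dag
    rw [transpose_transpose, ← Matrix.map_mul, h, Matrix.map_one _ (map_zero _) (map_one _)]
  rw [e1, e2, one_mulVec, one_mulVec, mul_pow]
  linear_combination (t * t' ^ q) * hδ

/-- elements of the Levi factor -/
def lev (M M' : Matrix l l F) (δ : F) (h : M' * M = 1) (hδ : δ * δ ^ q = 1)
    (hd : M.det * M'.det ^ q * δ = 1) : UJ q (J3 l F) :=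
  ⟨⟨levmat hF M M' δ, by rw [levmat_det, hd]⟩, levmat_preserves hF M M' δ h hδ⟩

theorem levmat_mul_uBmat (M M' : Matrix l l F) (δ : F) (h : M' * M = 1) (S : Matrix l l F) :
    levmat hF M M' δ * uBmat q 0 S = uBmat q 0 (M * S * dag hF M) * levmat hF M M' δ := by
  rw [Matrix.ext_iff_mulVec]
  intro w
  obtain ⟨x, y, τ, rfl⟩ := mk3_surj w
  rw [← mulVec_mulVec, ← mulVec_mulVec, uBmat_mulVec, levmat_mulVec, levmat_mulVec, uBmat_mulVec]
  have e : M * S * dag hF M * dag hF M' = M * S := by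
    rw [mul_assoc, ← dag_mul, h, dag_one, mul_one]
  congr 1
  · rw [smul_zero, smul_zero, add_zero, add_zero, mulVec_add, mulVec_mulVec, mulVec_mulVec, e]
  · rw [fv_zero hF, zero_dotProduct, zero_dotProduct]
    ring

end

end Cfsg.Agent.Lib.Helper44
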