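import Cfsg.Agent.Lib.Helper44.SUh
import Cfsg.Agent.Lib.Helper44.SUg

/-!
# Weights of the centre of the unipotent radical in odd-dimensional unitary groups
-/

set_option autoImplicit false
set_option linter.unusedSectionVars false

namespace Cfsg.Agent.Lib.Helper44

open Matrix Cfsg.Agent.Lib.Helper17

section general

variable {F : Type*} [Field F] [Fintype F] [DecidableEq F] {q : ℕ} (hF : Fintype.card F = q ^ 2)
  {l : Type} [Fintype l] [DecidableEq l] {G : Type*} [Group G] {d : ℕ}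
  (a : (l × l → F) → G) (R : G →* Matrix (Fin d) (Fin d) ℂ)

theorem herm_of_weight {ψ : AddChar F ℂ} (hψ : ψ.IsPrimitive) (hinv : ∀ x, ψ (x ^ q) = ψ x)
    (hadd : ∀ x y, a (x + y) = a x * a y) (hker : ∀ Z, a (vecOf (Z - dag hF Z)) = 1)
    (c : l × l → F) (hc' : wOp ψ a R c ≠ 0) : (matOf c)ᵀ = (matOf c).map (frobQ hF) := by
  rw [Matrix.ext_iff_trace_mul_right]
  intro A
  have key : ∀ Z : Matrix l l F,
      ψ (((matOf c)ᵀ * Z).trace - ((matOf c).map (frobQ hF) * Z).trace) = 1 := by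
    intro Z
    have h1 := map_mul_wOp ψ a R hadd c (vecOf (Z - dag hF Z))
    rw [hker, map_one, one_mul] at h1
    have h2 : (ψ (c ⬝ᵥ vecOf (Z - dag hF Z)) - 1) • wOp ψ a R c = 0 := by
      rw [sub_smul, one_smul, ← h1, sub_self]
    have h3 : ψ (c ⬝ᵥ vecOf (Z - dag hF Z)) = 1 := by
      rcases smul_eq_zero.mp h2 with h3 | h3
      · exact sub_eq_zero.mp h3
      · exact absurd h3 hc'
    rw [dot_eq_trace, matOf_vecOf, mul_sub, trace_sub] at h3
    have e : ((matOf c)ᵀ * dag hF Z).trace = (((matOf c).map (frobQ hF) * Z).trace) ^ q := by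
      rw [← trace_map_frob, Matrix.map_mul, map_map_frob]
      unfold dag
      rw [← transpose_mul, trace_transpose, trace_mul_comm]
    rw [e, sub_eq_add_neg, AddChar.map_add_eq_mul, AddChar.map_neg_eq_inv, hinv,
      ← AddChar.map_neg_eq_inv, ← AddChar.map_add_eq_mul, ← sub_eq_add_neg] at h3
    exact h3
  by_contra hne
  have hne' : ((matOf c)ᵀ * A).trace - ((matOf c).map (frobQ hF) * A).trace ≠ 0 :=
    sub_ne_zero.mpr hne
  obtain ⟨t, ht⟩ := AddChar.ne_one_iff.1 (hψ hne')
  apply ht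
  show ψ ((((matOf c)ᵀ * A).trace - ((matOf c).map (frobQ hF) * A).trace) * t) = 1
  have := key (t • A)
  rw [Matrix.mul_smul, Matrix.mul_smul, trace_smul, trace_smul, smul_eq_mul, smul_eq_mul,
    ← mul_sub, mul_comm] at this
  exact this

theorem weight_congr (ψ : AddChar F ℂ) (N N' : Matrix l l F) (hN : N' * N = 1) (g : G)
    (hg : ∀ y, g * a y = a (vecOf (N' * matOf y * dag hF N')) * g) (c : l × l → F)
    (hc' : wOp ψ a R c ≠ 0) : wOp ψ a R (vecOf (Nᵀ * matOf c * N.map (frobQ hF))) ≠ 0 := by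
  have hN' : N * N' = 1 := mul_eq_one_comm.mp hN
  refine wOp_ne_zero_of_conj' ψ a R g
    (fun y => vecOf (N' * matOf y * dag hF N')) ?_ hg c _ ?_ hc'
  · apply Function.Injective.bijective_of_finite
    intro y y' hy
    have h1 : N' * matOf y * dag hF N' = N' * matOf y' * dag hF N' := congrArg matOf hy
    have h3 : N * (N' * matOf y * dag hF N') * dag hF N
        = N * (N' * matOf y' * dag hF N') * dag hF N := by rw [h1]
    have e : ∀ Y : Matrix l l F, N * (N' * Y * dag hF N') * dag hF N = Y := by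
      intro Y
      rw [mul_assoc N', ← mul_assoc N, hN', one_mul, mul_assoc, ← dag_mul, hN', dag_one, mul_one]
    rw [e, e] at h3
    exact congrArg vecOf h3
  · intro y
    rw [dot_eq_trace, dot_eq_trace, matOf_vecOf, matOf_vecOf, transpose_mul, transpose_mul,
      transpose_transpose]
    have e : (N.map (frobQ hF))ᵀ * ((matOf c)ᵀ * N) * (N' * matOf y * dag hF N')
        = dag hF N * ((matOf c)ᵀ * matOf y) * dag hF N' := by
      have : (matOf c)ᵀ * N * (N' * matOf y) = (matOf c)ᵀ * matOf y := by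
        rw [mul_assoc, ← mul_assoc N, hN', one_mul]
      calc (N.map (frobQ hF))ᵀ * ((matOf c)ᵀ * N) * (N' * matOf y * dag hF N')
          = (N.map (frobQ hF))ᵀ * ((matOf c)ᵀ * N * (N' * matOf y)) * dag hF N' := by
            simp only [mul_assoc]
        _ = _ := by rw [this]; rfl
    rw [e, trace_mul_cycle, ← dag_mul, hN', dag_one, one_mul]

end general

section

variable {F : Type*} [Field F] [Fintype F] {q : ℕ} (hF : Fintype.card F = q ^ 2)
  {l : Type} [Fintype l] [DecidableEq l]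

theorem dag_vecMulVec (u v : l → F) : dag hF (vecMulVec u v) = vecMulVec (fv q v) (fv q u) := by
  ext i j
  show (u j * v i) ^ q = v i ^ q * u j ^ q
  rw [mul_pow, mul_comm]

include hF in
theorem uBmat_zero : uBmat q (0 : l → F) 0 = 1 := by
  rw [Matrix.ext_iff_mulVec]
  intro w
  obtain ⟨x, y, τ, rfl⟩ := mk3_surj w
  rw [uBmat_mulVec, fv_zero hF, one_mulVec]
  simp

variable (k : F) (hk : k ^ q = -k)

/-- the centre of the unipotent radical, parametrised by all matrices -/
def zY (y : l × l → F) : UJ q (J3 l F) :=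
  uB hF 0 (k • (matOf y + dag hF (matOf y))) (by
    rw [dag_skew hF k hk, add_neg_cancel, zero_vecMulVec, neg_zero])

theorem zY_coe (y : l × l → F) :
    (zY hF k hk y).1.1 = uBmat q 0 (k • (matOf y + dag hF (matOf y))) := rfl

theorem zY_add (x y : l × l → F) : zY hF k hk (x + y) = zY hF k hk x * zY hF k hk y := by
  apply UJ_ext
  show uBmat q 0 _ = uBmat q 0 _ * uBmat q 0 _
  rw [uBmat_mul hF, zero_vecMulVec, sub_zero, add_zero, matOf_add, dag_add, ← smul_add]
  congr 2
  abel

theorem zY_ker (Z : Matrix l l F) : zY hF k hk (vecOf (Z - dag hF Z)) = 1 := by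
  apply UJ_ext
  show uBmat q 0 _ = 1
  rw [matOf_vecOf, dag_sub, dag_dag]
  have : Z - dag hF Z + (dag hF Z - Z) = 0 := by abel
  rw [this, smul_zero, uBmat_zero hF]

theorem lev_mul_zY (M M' : Matrix l l F) (δ : F) (h : M' * M = 1) (hδ : δ * δ ^ q = 1)
    (hd : M.det * M'.det ^ q * δ = 1) (y : l × l → F) :
    lev hF M M' δ h hδ hd * zY hF k hk y
      = zY hF k hk (vecOf (M * matOf y * dag hF M)) * lev hF M M' δ h hδ hd := by
  apply UJ_ext
  show levmat hF M M' δ * uBmat q 0 _ = uBmat q 0 _ * levmat hF M M' δ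
  rw [levmat_mul_uBmat hF M M' δ h]
  congr 2
  rw [matOf_vecOf, dag_mul, dag_mul, dag_dag, Matrix.mul_smul, Matrix.smul_mul, mul_add, add_mul,
    mul_assoc M (dag hF (matOf y))]

variable (θ : F) (hθ : θ + θ ^ q = 1)

/-- a section of the unipotent radical over its Frattini quotient -/
def uT (s : l → F) : UJ q (J3 l F) :=
  uB hF s (-(θ • vecMulVec s (fv q s))) (by
    have : dag hF (-(θ • vecMulVec s (fv q s))) = -(θ ^ q • vecMulVec s (fv q s)) := by
      have e : -(θ • vecMulVec s (fv q s)) = (-θ) • vecMulVec s (fv q s) := by rw [neg_smul]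
      rw [e, dag_smul, dag_vecMulVec, fv_fv hF, neg_pow_q hF, neg_smul]
    rw [this, ← neg_add, ← add_smul, hθ, one_smul])

theorem uT_mul_zY (s : l → F) (y : l × l → F) :
    uT hF θ hθ s * zY hF k hk y = zY hF k hk y * uT hF θ hθ s := by
  apply UJ_ext
  show uBmat q s _ * uBmat q 0 _ = uBmat q 0 _ * uBmat q s _
  rw [uBmat_mul hF, uBmat_mul hF, fv_zero hF, vecMulVec_zero, zero_vecMulVec, add_zero, zero_add,
    add_comm]

include hk in
theorem uT_mul_uT (hk0 : k ≠ 0) (t s : l → F) :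
    uT hF θ hθ t * uT hF θ hθ s
      = zY hF k hk (vecOf (k⁻¹ • vecMulVec s (fv q t))) * uT hF θ hθ s * uT hF θ hθ t := by
  apply UJ_ext
  show uBmat q t _ * uBmat q s _ = uBmat q 0 _ * uBmat q s _ * uBmat q t _
  rw [uBmat_mul hF, uBmat_mul hF, uBmat_mul hF, zero_vecMulVec, zero_add, add_comm t s, matOf_vecOf,
    dag_smul, dag_vecMulVec, fv_fv hF, inv_pow, hk, smul_add, smul_smul, smul_smul,
    mul_inv_cancel₀ hk0, one_smul]
  have : k * (-k)⁻¹ = -1 := by
    rw [inv_neg, mul_neg, mul_inv_cancel₀ hk0]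
  rw [this, neg_smul, one_smul]
  congr 1
  abel

omit [Fintype F] in
theorem dot_vecOf_vmv (c : l × l → F) (κ : F) (s t : l → F) :
    c ⬝ᵥ vecOf (κ • vecMulVec s (fv q t)) = κ * fJ q (matOf c) s t := by
  rw [dot_eq_trace, matOf_vecOf, Matrix.mul_smul, trace_smul, mul_vecMulVec, trace_vecMulVec,
    mulVec_dot, transpose_transpose, smul_eq_mul]
  rfl

end

end Cfsg.Agent.Lib.Helper44
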