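import Cfsg.Agent.Lib.Helper44.SUi

/-!
# Lower bound `(q^n-q)/(q+1)` for the nonlinear irreducible complex representations of `SU_n(q)`,
`n` odd
-/

set_option autoImplicit false
set_option linter.unusedSectionVars false

namespace Cfsg.Agent.Lib.Helper44

open Matrix Cfsg Cfsg.Agent.Lib.Helper17

section

variable {F : Type*} [Field F] [Fintype F] [DecidableEq F] {q : ℕ} (hF : Fintype.card F = q ^ 2)
  {l : Type} [Fintype l] [DecidableEq l]

include hF in
theorem exists_theta : ∃ θ : F, θ + θ ^ q = 1 := by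
  obtain ⟨e, he⟩ := exists_trace_ne_zero hF
  refine ⟨e / (e + e ^ q), ?_⟩
  rw [div_pow, add_pow_q hF, pow_q_pow_q hF, add_comm (e ^ q) e, ← add_div, div_self he]

/-- every nonzero weight has multiplicity at least `q` -/
theorem le_rank_eOp (k : F) (hk0 : k ≠ 0) (hk : k ^ q = -k) {d : ℕ}
    (R : UJ q (J3 l F) →* Matrix (Fin d) (Fin d) ℂ) {ψ : AddChar F ℂ} (hψ : ψ.IsPrimitive)
    (c : l × l → F) (hc : wOp ψ (zY hF k hk) R c ≠ 0) (hsym : (matOf c)ᵀ = (matOf c).map (frobQ hF))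
    (hc0 : matOf c ≠ 0) : q ≤ (eOp ψ (zY hF k hk) R c).rank := by
  obtain ⟨θ, hθ⟩ := exists_theta hF
  obtain ⟨s₀, hs₀⟩ := exists_fJ_ne_zero hF hsym hc0
  obtain ⟨x₀, hx₀⟩ := AddChar.ne_one_iff.1 (hψ one_ne_zero)
  have hx₀' : ψ (1 * x₀) ≠ 1 := hx₀
  rw [one_mul] at hx₀'
  have h := card_le_rank_eOp_sq (zY hF k hk) R hψ (zY_add hF k hk) c hc
    (fun i : F => uT hF θ hθ (i • s₀)) (fun i y => uT_mul_zY hF k hk θ hθ _ y) ?_
  · rw [hF] at h
    exact (Nat.pow_le_pow_iff_left (by norm_num)).mp h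
  · intro i j hij
    have hij' : i - j ≠ 0 := sub_ne_zero.mpr hij
    set γ := fJ q (matOf c) s₀ s₀ with hγ
    refine ⟨uT hF θ hθ ((x₀ * k / ((i - j) * γ)) ^ q • s₀), _, _,
      fun y => uT_mul_zY hF k hk θ hθ _ y, uT_mul_uT hF k hk θ hθ hk0 _ _,
      uT_mul_uT hF k hk θ hθ hk0 _ _, ?_⟩
    rw [dotProduct_sub, dot_vecOf_vmv, dot_vecOf_vmv, fJ_smul_left, fJ_smul_left, fJ_smul_right,
      pow_q_pow_q hF, ← hγ]
    have : k⁻¹ * (i * (x₀ * k / ((i - j) * γ) * γ)) - k⁻¹ * (j * (x₀ * k / ((i - j) * γ) * γ))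
        = x₀ := by
      field_simp
    rw [this]
    exact hx₀'

/-- the nonzero weights of the centre of the unipotent radical -/
theorem exists_herm_weights_odd (k : F) (hk0 : k ≠ 0) (hk : k ^ q = -k) {d : ℕ}
    (R : UJ q (J3 l F) →* Matrix (Fin d) (Fin d) ℂ) :
    ∃ W : Finset (Matrix l l F), q * W.card ≤ d ∧ (∀ C ∈ W, C ≠ 0) ∧
      (∀ C ∈ W, Cᵀ = C.map (frobQ hF)) ∧
      (∀ C ∈ W, ∀ N N' : Matrix l l F, N' * N = 1 → Nᵀ * C * N.map (frobQ hF) ∈ W) ∧
      (W = ∅ → ∀ y, R (zY hF k hk y) = 1) := by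
  classical
  obtain ⟨ψ, hψ, hinv⟩ := exists_inv_addChar hF
  have hadd := zY_add (l := l) hF k hk
  have hherm : ∀ c, wOp ψ (zY hF k hk) R c ≠ 0 → (matOf c)ᵀ = (matOf c).map (frobQ hF) :=
    fun c hc => herm_of_weight hF _ R hψ hinv hadd (zY_ker hF k hk) c hc
  refine ⟨(Finset.univ.filter fun c => wOp ψ (zY hF k hk) R c ≠ 0 ∧ matOf c ≠ 0).image matOf,
    ?_, ?_, ?_, ?_, ?_⟩
  · refine le_trans (Nat.mul_le_mul_left _ Finset.card_image_le) ?_
    refine mul_card_weights_le (zY hF k hk) R hψ hadd _ q ?_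
    intro c hc
    obtain ⟨h1, h2⟩ := (Finset.mem_filter.mp hc).2
    exact le_rank_eOp hF k hk0 hk R hψ c h1 (hherm c h1) h2
  · intro C hC
    obtain ⟨c, hc, rfl⟩ := Finset.mem_image.mp hC
    exact (Finset.mem_filter.mp hc).2.2
  · intro C hC
    obtain ⟨c, hc, rfl⟩ := Finset.mem_image.mp hC
    exact hherm c (Finset.mem_filter.mp hc).2.1
  · intro C hC N N' hN
    obtain ⟨c, hc, rfl⟩ := Finset.mem_image.mp hC
    obtain ⟨h1, h2⟩ := (Finset.mem_filter.mp hc).2
    have hN' : N * N' = 1 := mul_eq_one_comm.mp hN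
    have hdd : N'.det * N.det = 1 := by rw [← det_mul, hN, det_one]
    refine Finset.mem_image.mpr ⟨vecOf (Nᵀ * matOf c * N.map (frobQ hF)), ?_, rfl⟩
    rw [Finset.mem_filter]
    refine ⟨Finset.mem_univ _, ?_, ?_⟩
    · refine weight_congr hF _ R ψ N N' hN
        (lev hF N' N (N.det * N'.det ^ q) hN' ?_ ?_) (lev_mul_zY hF k hk N' N _ hN' _ _) c h1
      · rw [mul_pow, pow_q_pow_q hF]
        calc N.det * N'.det ^ q * (N.det ^ q * N'.det)
            = (N'.det * N.det) * (N'.det * N.det) ^ q := by rw [mul_pow]; ring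
          _ = 1 := by rw [hdd, one_pow, one_mul]
      · calc N'.det * N.det ^ q * (N.det * N'.det ^ q)
            = (N'.det * N.det) * (N'.det * N.det) ^ q := by rw [mul_pow]; ring
          _ = 1 := by rw [hdd, one_pow, one_mul]
    · rw [matOf_vecOf]
      intro h0
      apply h2
      have e1 : N'ᵀ * (Nᵀ * matOf c * N.map (frobQ hF)) * N'.map (frobQ hF) = matOf c := by
        rw [mul_assoc Nᵀ, ← mul_assoc N'ᵀ, ← transpose_mul, hN', transpose_one, one_mul, mul_assoc,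
          ← Matrix.map_mul, hN', Matrix.map_one _ (map_zero _) (map_one _), mul_one]
      rw [← e1, h0, mul_zero, zero_mul]
  · intro hW y
    apply map_eq_one_of_weights _ R hψ card_fun_ne_zero hadd
    intro c hc
    by_cases h0 : matOf c = 0
    · have : c = 0 := congrArg vecOf h0
      rw [this, zero_dotProduct]
    · exfalso
      have : matOf c ∈ (Finset.univ.filter
          fun c => wOp ψ (zY hF k hk) R c ≠ 0 ∧ matOf c ≠ 0).image matOf :=
        Finset.mem_image.mpr ⟨c, Finset.mem_filter.mpr ⟨Finset.mem_univ _, hc, h0⟩, rfl⟩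
      rw [hW] at this
      exact absurd this (Finset.notMem_empty _)

theorem zY_single_mulVec (k : F) (hk : k ^ q = -k) (i₀ : l) (a : F) (w : (l ⊕ l) ⊕ Unit → F) :
    (zY hF k hk (vecOf (Matrix.single i₀ i₀ a))).1.1 *ᵥ w
      = w + ((k * (a + a ^ q)) * fJ q (J3 l F) w (mk3 (Pi.single i₀ 1) 0 0)) •
        (mk3 (Pi.single i₀ 1) 0 0 : (l ⊕ l) ⊕ Unit → F) := by
  have hq0 : q ≠ 0 := by have := two_le_of_card_sq hF; omega
  obtain ⟨x, y, t, rfl⟩ := mk3_surj w
  have e3 : dag hF (Matrix.single i₀ i₀ a) = Matrix.single i₀ i₀ (a ^ q) := by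
    unfold dag
    rw [Matrix.map_single, transpose_single]
    rfl
  rw [zY_coe, uBmat_mulVec, matOf_vecOf, e3, ← Matrix.single_add, Matrix.smul_single, fJ_J3,
    fv_zero hF, fv_single hF, dotProduct_zero, zero_pow hq0, mul_zero, add_zero, zero_add,
    dotProduct_single, mul_one, smul_mk3, mk3_add, smul_zero, add_zero, smul_zero, add_zero,
    zero_dotProduct, sub_zero, mul_zero, add_zero, Matrix.single_mulVec]
  congr 2
  funext j
  by_cases hj : j = i₀
  · subst hj; simp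
  · simp [hj]

end

theorem su_odd_degree_bound {F : Type*} [Field F] [Fintype F] [DecidableEq F] (q : ℕ)
    (hF : Fintype.card F = q ^ 2) (m : ℕ) (hex : ¬ (2 * (m + 1) + 1 = 3 ∧ q = 2)) (k : ℕ)
    (ρ : Representation ℂ (Cfsg.SU (2 * (m + 1) + 1) F q) (Fin k → ℂ)) (hρ : ρ.IsIrreducible)
    (hk : 2 ≤ k) : (q ^ (2 * (m + 1) + 1) - q) / (q + 1) ≤ k := by
  classical
  obtain ⟨Θ, Φ, hΦ, hΘ⟩ := exists_transport hF (J3 (Fin (m + 1)) F) (J3 (Fin (m + 1)) F)
    (J3_herm hF) J3_mul_self (k := 2 * (m + 1) + 1) (by simp [Fintype.card_sum]; ring)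
  obtain ⟨κ, hκ0, hκ⟩ := exists_skew hF
  let R₀ : Cfsg.SU (2 * (m + 1) + 1) F q →* Matrix (Fin k) (Fin k) ℂ :=
    ((LinearMap.toMatrixAlgEquiv' (R := ℂ) (n := Fin k)).toAlgHom.toRingHom.toMonoidHom).comp ρ
  obtain ⟨W, hWk, hW0, hsym, hcl, htriv⟩ := exists_herm_weights_odd hF κ hκ0 hκ (R₀.comp Θ)
  by_cases h0 : W = ∅
  · exfalso
    obtain ⟨a, ha⟩ := exists_trace_ne_zero hF
    have hB : R₀ (Θ (zY hF κ hκ (vecOf (Matrix.single 0 0 a)))) = 1 := htriv h0 _
    set B := zY hF κ hκ (vecOf (Matrix.single (0 : Fin (m + 1)) 0 a)) with hBdef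
    set e : (Fin (m + 1) ⊕ Fin (m + 1)) ⊕ Unit → F := mk3 (Pi.single 0 1) 0 0 with he
    have hq0 : q ≠ 0 := by have := two_le_of_card_sq hF; omega
    have hmat : (Θ B).1.1
        = Cfsg.unitaryTransvection (2 * (m + 1) + 1) q (Φ.symm e) (κ * (a + a ^ q)) := by
      rw [Matrix.ext_iff_mulVec]
      intro x
      rw [hΘ, hBdef, zY_single_mulVec, unitaryTransvection_mulVec, map_add, map_smul,
        Φ.symm_apply_apply, ← hΦ x (Φ.symm e), Φ.apply_symm_apply]
    have hv0 : Cfsg.hermForm (2 * (m + 1) + 1) F q (Φ.symm e) (Φ.symm e) = 0 := by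
      rw [← hΦ, Φ.apply_symm_apply, he, fJ_J3, fv_zero hF]
      simp [hq0]
    have hne : Θ B ≠ 1 := by
      intro h
      have h1 : (Θ B).1.1 *ᵥ (Φ.symm (mk3 0 (Pi.single 0 1) 0)) = Φ.symm (mk3 0 (Pi.single 0 1) 0) := by
        rw [h]
        exact one_mulVec _
      rw [hmat, unitaryTransvection_mulVec, ← hΦ, Φ.apply_symm_apply, Φ.apply_symm_apply, he,
        fJ_J3, fv_single hF, fv_zero hF, zero_dotProduct, single_dotProduct, Pi.single_eq_same,
        zero_mul, add_zero, zero_add, mul_one, mul_one, add_eq_left, smul_eq_zero] at h1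
      rcases h1 with h1 | h1
      · exact (mul_ne_zero hκ0 ha) h1
      · have h2 : (mk3 (Pi.single 0 1) 0 0 : (Fin (m + 1) ⊕ Fin (m + 1)) ⊕ Unit → F) = 0 := by
          simpa using h1
        have := congrFun h2 (Sum.inl (Sum.inl 0))
        simp [mk3] at this
    have hR : ∀ g, R₀ g = 1 := su_hom_trivial hF _ (by omega) hex R₀ (Θ B) _ _ hmat hv0 hne hB
    have hρ1 : ∀ g, ρ g = 1 := fun g =>
      (LinearMap.toMatrixAlgEquiv' (R := ℂ) (n := Fin k)).injective (by rw [map_one]; exact hR g)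
    have := degree_of_trivial_irr ρ hρ hρ1
    nlinarith
  · obtain ⟨C, hC⟩ := Finset.nonempty_iff_ne_empty.mpr h0
    have hC0 := hW0 C hC
    have hcount : q ^ (2 * (m + 1)) - 1 ≤ (q + 1) * W.card := by
      rcases Nat.eq_zero_or_pos m with hm | hm
      · subst hm
        have hsub : Subsingleton (Fin (0 + 1)) := (inferInstance : Subsingleton (Fin 1))
        have hγ : C 0 0 ≠ 0 := by
          intro h
          apply hC0
          ext i j
          rw [Subsingleton.elim i 0, Subsingleton.elim j 0, h]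
          rfl
        refine le_trans (card_norm_image hF (C 0 0) hγ) (Nat.mul_le_mul_left _ ?_)
        refine le_trans ?_ (Finset.card_image_le (s := W) (f := fun C' => C' 0 0))
        apply Finset.card_le_card
        intro x hx
        obtain ⟨s, -, rfl⟩ := Finset.mem_image.mp hx
        have h1 := hcl C hC ((s : F) • 1) ((s : F)⁻¹ • 1) (by
          rw [Matrix.smul_mul, Matrix.mul_smul, mul_one, smul_smul, inv_mul_cancel₀ s.ne_zero,
            one_smul])
        refine Finset.mem_image.mpr ⟨_, h1, ?_⟩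
        simp [Matrix.mul_apply, frobQ_apply, Matrix.one_apply]
        ring
      · exact herm_card_bound hF m W (fun C hC N N' hN _ => hcl C hC N N' hN) hm hsym hC hC0
    apply Nat.div_le_of_le_mul
    have hq := two_le_of_card_sq hF
    have h1 : 1 ≤ q ^ (2 * (m + 1)) := Nat.one_le_pow _ _ (by omega)
    obtain ⟨A, hA⟩ : ∃ A, q ^ (2 * (m + 1)) = A + 1 := ⟨q ^ (2 * (m + 1)) - 1, by omega⟩
    rw [pow_succ, hA]
    rw [hA] at hcount
    have h2 : A ≤ (q + 1) * W.card := by simpa using hcount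
    have h3 : (A + 1) * q - q = A * q := by
      rw [add_mul, one_mul, Nat.add_sub_cancel]
    rw [h3]
    calc A * q ≤ (q + 1) * W.card * q := Nat.mul_le_mul_right _ h2
      _ = (q + 1) * (q * W.card) := by ring
      _ ≤ (q + 1) * k := Nat.mul_le_mul_left _ hWk

end Cfsg.Agent.Lib.Helper44
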