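import Cfsg.Agent.Lib.Helper44.WeilBound1
import Cfsg.Agent.Lib.Helper44.WeilBound2

/-!
# Weights of the full Siegel radical of `Sp_{2n}(q)` as quadratic forms (any characteristic)
-/

set_option autoImplicit false
set_option linter.unusedSectionVars false

namespace Cfsg.Agent.Lib.Helper44

open Matrix Cfsg.Agent.Lib.Helper7

section general

variable {F : Type*} [Field F] [Fintype F] [DecidableEq F]
  {ι : Type*} [Fintype ι] [DecidableEq ι] {G : Type*} [Group G] {d : ℕ}
  (a : (ι → F) → G) (R : G →* Matrix (Fin d) (Fin d) ℂ)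

/-- normalising elements permute the weights; version for a not necessarily bijective linear map -/
theorem exists_weight_of_conj {ψ : AddChar F ℂ} (hψ : ψ.IsPrimitive)
    (ha : ∀ x y, a (x + y) = a x * a y) (g : G) (T : (ι → F) →ₗ[F] (ι → F))
    (hg : ∀ y, g * a y = a (T y) * g) (c : ι → F) (hc : wOp ψ a R c ≠ 0) :
    ∃ c', wOp ψ a R c' ≠ 0 ∧ ∀ y, c' ⬝ᵥ T y = c ⬝ᵥ y := by
  by_contra hcon
  push Not at hcon
  have hq : (Fintype.card (ι → F) : ℂ) ≠ 0 := by
    have : 0 < Fintype.card (ι → F) := Fintype.card_pos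
    exact_mod_cast this.ne'
  set X : Matrix (Fin d) (Fin d) ℂ := ∑ y : ι → F, ψ (-(c ⬝ᵥ y)) • R (a (T y)) with hX
  have hXg : R g * wOp ψ a R c = X * R g := by
    unfold wOp
    rw [hX, Finset.mul_sum, Finset.sum_mul]
    refine Finset.sum_congr rfl fun y _ => ?_
    rw [Matrix.mul_smul, Matrix.smul_mul, ← map_mul, ← map_mul, hg]
  have key : ∀ c', X * wOp ψ a R c' = 0 := by
    intro c'
    by_cases h0 : wOp ψ a R c' = 0
    · rw [h0, mul_zero]
    · obtain ⟨y₀, hy₀⟩ := hcon c' h0
      have hT : ∀ y, T y = LinearMap.toMatrix' T *ᵥ y :=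
        fun y => (LinearMap.toMatrix'_mulVec T y).symm
      have e : ∀ y, -(c ⬝ᵥ y) + c' ⬝ᵥ T y = (c' ᵥ* LinearMap.toMatrix' T - c) ⬝ᵥ y := by
        intro y
        rw [hT, dotProduct_mulVec, sub_dotProduct]
        ring
      have hw : c' ᵥ* LinearMap.toMatrix' T - c ≠ 0 := by
        intro h
        have := e y₀
        rw [h, zero_dotProduct] at this
        apply hy₀
        linear_combination this
      rw [hX, Finset.sum_mul]
      have : ∀ y : ι → F, (ψ (-(c ⬝ᵥ y)) • R (a (T y))) * wOp ψ a R c'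
          = ψ ((c' ᵥ* LinearMap.toMatrix' T - c) ⬝ᵥ y) • wOp ψ a R c' := by
        intro y
        rw [Matrix.smul_mul, map_mul_wOp ψ a R ha, smul_smul, ← AddChar.map_add_eq_mul, e]
      rw [Finset.sum_congr rfl fun y _ => this y, ← Finset.sum_smul, sum_psi_dot' hψ, if_neg hw,
        zero_smul]
  have h1 : X * ∑ c', wOp ψ a R c' = 0 := by
    rw [Finset.mul_sum]
    exact Finset.sum_eq_zero fun c' _ => key c'
  rw [sum_wOp a R hψ ha, Matrix.mul_smul, mul_one] at h1
  have hX0 : X = 0 := (smul_eq_zero.mp h1).resolve_left hq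
  rw [hX0, zero_mul] at hXg
  apply hc
  have : R g⁻¹ * (R g * wOp ψ a R c) = 0 := by rw [hXg, mul_zero]
  rwa [← mul_assoc, ← map_mul, inv_mul_cancel, map_one, one_mul] at this

end general

section sp

variable {F : Type*} [Field F] {n : ℕ}

/-- the symmetric matrix with the same upper triangle -/
def symm (Y : Matrix (Fin n) (Fin n) F) : Matrix (Fin n) (Fin n) F :=
  of fun i j => if i ≤ j then Y i j else Y j i

theorem symm_transpose (Y : Matrix (Fin n) (Fin n) F) : (symm Y)ᵀ = symm Y := by
  ext i j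
  simp only [symm, transpose_apply, of_apply]
  rcases lt_trichotomy i j with h | h | h
  · rw [if_neg (not_le.mpr h), if_pos h.le]
  · subst h; rfl
  · rw [if_pos h.le, if_neg (not_le.mpr h)]

theorem symm_add (X Y : Matrix (Fin n) (Fin n) F) : symm (X + Y) = symm X + symm Y := by
  ext i j
  simp only [symm, of_apply, Matrix.add_apply]
  split_ifs <;> rfl

theorem symm_smul (t : F) (Y : Matrix (Fin n) (Fin n) F) : symm (t • Y) = t • symm Y := by
  ext i j
  simp only [symm, of_apply, Matrix.smul_apply]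
  split_ifs <;> rfl

theorem symm_of_symm {Y : Matrix (Fin n) (Fin n) F} (h : Yᵀ = Y) : symm Y = Y := by
  ext i j
  simp only [symm, of_apply]
  split_ifs
  · rfl
  · exact congrFun (congrFun h i) j

/-- the full Siegel radical, parametrised by all matrices through their upper triangle -/
def sg (y : Fin n × Fin n → F) : symplecticGroup (Fin n) F :=
  siegel (symm (matOf y)) (symm_transpose _)

theorem sg_add (x y : Fin n × Fin n → F) : sg (x + y) = sg x * sg y := by
  unfold sg
  rw [← siegel_mul]
  · apply siegel_congr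
    rw [matOf_add, symm_add]
  · rw [transpose_add, symm_transpose, symm_transpose]

/-- the action of the Levi factor on the parameters -/
def Tlev (M : Matrix (Fin n) (Fin n) F) : (Fin n × Fin n → F) →ₗ[F] (Fin n × Fin n → F) where
  toFun y := vecOf (M * symm (matOf y) * Mᵀ)
  map_add' x y := by
    rw [matOf_add, symm_add, mul_add, add_mul]; rfl
  map_smul' t y := by
    rw [matOf_smul, symm_smul, Matrix.mul_smul, Matrix.smul_mul]; rfl

theorem Tlev_apply (M : Matrix (Fin n) (Fin n) F) (y : Fin n × Fin n → F) :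
    Tlev M y = vecOf (M * symm (matOf y) * Mᵀ) := rfl

theorem levi_sg (M M' : Matrix (Fin n) (Fin n) F) (h : M' * M = 1) (y : Fin n × Fin n → F) :
    leviSp M M' h * sg y = sg (Tlev M y) * leviSp M M' h := by
  unfold sg
  rw [levi_siegel]
  congr 1
  apply siegel_congr
  have hs : (M * symm (matOf y) * Mᵀ)ᵀ = M * symm (matOf y) * Mᵀ := by
    rw [transpose_mul, transpose_mul, transpose_transpose, symm_transpose, mul_assoc]
  rw [Tlev_apply, matOf_vecOf, symm_of_symm hs]

theorem dot_vecOf_self (c : Fin n × Fin n → F) (x : Fin n → F) :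
    c ⬝ᵥ vecOf (vecMulVec x x) = qf (matOf c) x := by
  rw [dot_eq_trace, matOf_vecOf, mul_vecMulVec, trace_vecMulVec]
  unfold qf
  rw [dotProduct_comm, dotProduct_mulVec, vecMul_transpose, dotProduct_comm, dotProduct_mulVec,
    ← mulVec_transpose, dotProduct_comm]

theorem sg_vmv (s : F) (x : Fin n → F) :
    sg (vecOf (s • vecMulVec x x)) = tv (Sum.elim x 0) s := by
  apply sp_ext
  intro z
  rw [tv_mulVec, om_apply]
  show fromBlocks 1 (symm (matOf (vecOf (s • vecMulVec x x)))) 0 1 *ᵥ z = _
  rw [matOf_vecOf, symm_of_symm (by rw [transpose_smul, transpose_vecMulVec]), fromBlocks_mulVec]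
  funext k
  rcases k with k | k
  · simp only [Sum.elim_inl, Pi.add_apply, one_mulVec, Function.comp_apply, smul_mulVec,
      vecMulVec_mulVec, Pi.smul_apply, smul_eq_mul, Sum.elim_inr, Pi.zero_apply, mul_zero, sub_zero,
      op_smul_eq_smul]
    congr 1
    unfold dotProduct
    simp only [Function.comp_apply, mul_comm]
    ring
  · simp

end sp

end Cfsg.Agent.Lib.Helper44
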