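import Cfsg.Agent.Lib.Helper44.Sp2a

/-!
# The quadratic forms attached to a complex representation of `Sp_{2n}(q)`
-/

set_option autoImplicit false
set_option linter.unusedSectionVars false

namespace Cfsg.Agent.Lib.Helper44

open Matrix Cfsg.Agent.Lib.Helper7

section

variable {F : Type*} [Field F] {l : Type*} [Fintype l] [DecidableEq l]

/-- a homomorphism killing the transvections along one basis vector is trivial -/
theorem trivial_of_tv {M : Type*} [Monoid M] (R : symplecticGroup l F →* M) (i : l)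
    (h1 : ∀ c : F, R (tv (eL F i) c) = 1) (g : symplecticGroup l F) : R g = 1 := by
  have h3 : ∀ (u : l ⊕ l → F) (c : F), R (tv u c) = 1 := by
    intro u c
    by_cases hu : u = 0
    · have : tv u c = 1 := by
        apply sp_ext
        intro x
        rw [tv_mulVec, hu, smul_zero, add_zero, sp_one_mulVec]
      rw [this, map_one]
    · have he : eL F i ≠ 0 := by
        intro h0
        have := congrFun h0 (Sum.inl i)
        simp [eL] at this
      obtain ⟨k, hk⟩ := sp_transitive he hu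
      rw [← hk, ← tv_conj, map_mul, map_mul, h1, mul_one, ← map_mul, mul_inv_cancel, map_one]
  have h4 : TW (⊤ : Submodule F (l ⊕ l → F)) ≤ R.ker := by
    unfold TW
    rw [Subgroup.closure_le]
    rintro t ⟨u, -, c, rfl⟩
    exact h3 u c
  rw [TW_top] at h4
  exact h4 (Subgroup.mem_top g)

theorem eL_eq (i : l) : eL F i = Sum.elim (Pi.single i 1) 0 := by
  funext k
  rcases k with k | k
  · by_cases hk : k = i
    · subst hk; simp [eL]
    · simp [eL, hk]
  · simp [eL]

/-- if the short root elements of the Siegel radical are killed, the homomorphism is trivial -/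
theorem trivial_of_short {M : Type*} [Monoid M] (R : symplecticGroup l F →* M) (i j : l)
    (hij : i ≠ j)
    (h : ∀ s : F, R (tv (eL F i + eL F j) s * tv (eL F i) (-s) * tv (eL F j) (-s)) = 1)
    (g : symplecticGroup l F) : R g = 1 := by
  apply trivial_of_tv R j
  have hji : j ≠ i := hij.symm
  -- the short root element moves `f_i` to `f_i + e_j`
  have e1 : (eR F i : l ⊕ l → F) (Sum.inr j) = 0 := by simp [eR, hji]
  have e2 : (eR F i : l ⊕ l → F) (Sum.inr i) = 1 := by simp [eR]
  have a1 : (tv (eL F j) (-1)).1 *ᵥ eR F i = eR F i := by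
    rw [tv_mulVec, om_eL, e1, mul_zero, zero_smul, add_zero]
  have a2 : (tv (eL F i) (-1)).1 *ᵥ eR F i = eR F i - eL F i := by
    rw [tv_mulVec, om_eL, e2, mul_one, neg_smul, one_smul, sub_eq_add_neg]
  have a3 : (tv (eL F i + eL F j) 1).1 *ᵥ (eR F i - eL F i) = eR F i + eL F j := by
    rw [tv_mulVec, map_add, om_eL, om_eL]
    have e3 : (eR F i - eL F i : l ⊕ l → F) (Sum.inr i) = 1 := by simp [eR, eL]
    have e4 : (eR F i - eL F i : l ⊕ l → F) (Sum.inr j) = 0 := by simp [eR, eL, hji]
    rw [e3, e4, add_zero, mul_one, one_smul]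
    abel
  have hX : (tv (eL F i + eL F j) 1 * tv (eL F i) (-1) * tv (eL F j) (-1)).1 *ᵥ eR F i
      = eR F i + eL F j := by
    rw [sp_mul_mulVec, sp_mul_mulVec, a1, a2, a3]
  have hinv : ∀ X : symplecticGroup l F, R X = 1 → R X⁻¹ = 1 := by
    intro X hX1
    have := map_mul R X⁻¹ X
    rw [inv_mul_cancel, map_one, hX1, mul_one] at this
    exact this.symm
  have h4 : ∀ c, R (tv (eR F i + eL F j) c) = R (tv (eR F i) c) := by
    intro c
    rw [← hX, ← tv_conj, map_mul, map_mul, h 1, one_mul, hinv _ (h 1), mul_one]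
  -- a Weyl type element
  have hom : om l F (eL F i) (eR F i) ≠ 0 := by
    rw [om_eR]
    simp [eL]
  set g₀ := tv (eL F i - eR F i) (om l F (eL F i) (eR F i))⁻¹ with hg₀
  have b1 : g₀.1 *ᵥ eL F i = eR F i := tv_move hom
  have b2 : g₀.1 *ᵥ eL F j = eL F j := by
    have z : om l F (eL F j) (eL F i - eR F i) = 0 := by
      rw [map_sub, om_eL, om_eR]
      simp [eL, hji]
    rw [hg₀, tv_mulVec, z, mul_zero, zero_smul, add_zero]
  intro c
  have h5 : g₀ * (tv (eL F i + eL F j) (-c) * tv (eL F i) (- -c) * tv (eL F j) (- -c)) * g₀⁻¹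
      = (g₀ * tv (eL F i + eL F j) (-c) * g₀⁻¹) * (g₀ * tv (eL F i) (- -c) * g₀⁻¹)
        * (g₀ * tv (eL F j) (- -c) * g₀⁻¹) := by group
  have h6 := congrArg R h5
  rw [map_mul, map_mul, h (-c), mul_one, ← map_mul, mul_inv_cancel, map_one, tv_conj, tv_conj,
    tv_conj, mulVec_add, b1, b2, map_mul, map_mul, h4, ← map_mul, tv_mul, neg_neg, neg_add_cancel,
    tv_zero, map_one, one_mul] at h6
  exact h6.symm

end

/-- the quadratic forms attached to a complex representation of `Sp_{2n}(q)` -/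
theorem exists_quad_weights {F : Type*} [Field F] [Fintype F] [DecidableEq F] (m : ℕ) {d : ℕ}
    (R : symplecticGroup (Fin (m + 2)) F →* Matrix (Fin d) (Fin d) ℂ) :
    ∃ Q : Finset ((Fin (m + 2) → F) → F), Q.card ≤ d ∧ (∀ f ∈ Q, ∃ C, f = qf C) ∧
      (∀ f ∈ Q, ∀ N N' : Matrix (Fin (m + 2)) (Fin (m + 2)) F, N' * N = 1 →
        (fun x => f (N *ᵥ x)) ∈ Q) ∧
      ((∀ f ∈ Q, ∀ x y, f (x + y) = f x + f y) → ∀ g, R g = 1) := by
  classical
  obtain ⟨ψ, hψ⟩ := exists_prim_addChar'' F
  have hq : (Fintype.card (Fin (m + 2) × Fin (m + 2) → F) : ℂ) ≠ 0 := by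
    have : 0 < Fintype.card (Fin (m + 2) × Fin (m + 2) → F) := Fintype.card_pos
    exact_mod_cast this.ne'
  refine ⟨(Finset.univ.filter fun c => wOp ψ sg R c ≠ 0).image (fun c => qf (matOf c)),
    ?_, ?_, ?_, ?_⟩
  · exact Finset.card_image_le.trans
      (card_weights_le _ R hψ hq sg_add _ fun c hc => (Finset.mem_filter.mp hc).2)
  · intro f hf
    obtain ⟨c, -, rfl⟩ := Finset.mem_image.mp hf
    exact ⟨_, rfl⟩
  · intro f hf N N' hN
    obtain ⟨c, hc, rfl⟩ := Finset.mem_image.mp hf
    have hc' := (Finset.mem_filter.mp hc).2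
    have hN' : N * N' = 1 := mul_eq_one_comm.mp hN
    obtain ⟨c', hc'0, hcc⟩ := exists_weight_of_conj sg R hψ sg_add (leviSp N' N hN') (Tlev N')
      (levi_sg N' N hN') c hc'
    refine Finset.mem_image.mpr ⟨c', Finset.mem_filter.mpr ⟨Finset.mem_univ _, hc'0⟩, ?_⟩
    funext x
    rw [← dot_vecOf_self, ← dot_vecOf_self, ← hcc, Tlev_apply, matOf_vecOf,
      symm_of_symm (transpose_vecMulVec _ _), mul_vecMulVec, vecMulVec_mul, vecMul_transpose,
      mulVec_mulVec, hN, one_mulVec]
  · intro hQ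
    apply trivial_of_short R (0 : Fin (m + 2)) 1 (by simp)
    intro s
    have e : tv (eL F (0 : Fin (m + 2)) + eL F 1) s * tv (eL F 0) (-s) * tv (eL F 1) (-s)
        = sg (vecOf (s • vecMulVec (Pi.single 0 1 + Pi.single 1 1) (Pi.single 0 1 + Pi.single 1 1))
          + vecOf ((-s) • vecMulVec (Pi.single 0 1) (Pi.single 0 1))
          + vecOf ((-s) • vecMulVec (Pi.single 1 1) (Pi.single 1 1))) := by
      rw [sg_add, sg_add, sg_vmv, sg_vmv, sg_vmv, eL_eq, eL_eq]
      congr 3
      funext k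
      rcases k with k | k
      · rfl
      · exact add_zero _
    rw [e]
    apply map_eq_one_of_weights sg R hψ hq sg_add
    intro c hc
    have h1 := hQ _ (Finset.mem_image.mpr ⟨c, Finset.mem_filter.mpr ⟨Finset.mem_univ _, hc⟩, rfl⟩)
      (Pi.single 0 1) (Pi.single 1 1)
    have e2 : ∀ (t : F) (x : Fin (m + 2) → F), c ⬝ᵥ vecOf (t • vecMulVec x x) = t * qf (matOf c) x := by
      intro t x
      rw [← dot_vecOf_self]
      have : vecOf (t • vecMulVec x x) = t • vecOf (vecMulVec x x) := rfl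
      rw [this, dotProduct_smul, smul_eq_mul]
    rw [dotProduct_add, dotProduct_add, e2, e2, e2, h1]
    ring

end Cfsg.Agent.Lib.Helper44
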