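import Cfsg.Agent.Lib.Helper44.Sp2b

/-!
# Quadratic forms as functions, coordinates
-/

set_option autoImplicit false
set_option linter.unusedSectionVars false

namespace Cfsg.Agent.Lib.Helper44

open Matrix

section api

variable {F : Type*} [Field F] {κ : Type*} [Fintype κ] [DecidableEq κ]

/-- the polar form of a function -/
def pol (f : (κ → F) → F) (x y : κ → F) : F := f (x + y) - f x - f y

/-- quadratic forms, as functions -/
def IsQF (f : (κ → F) → F) : Prop :=
  (∀ (t : F) x, f (t • x) = t ^ 2 * f x) ∧ ∀ u, ∃ ρ : κ → F, ∀ x, pol f u x = ρ ⬝ᵥ x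

theorem isQF_qf (C : Matrix κ κ F) : IsQF (qf C) := by
  refine ⟨fun t x => qf_smul C t x, fun u => ⟨u ᵥ* (C + Cᵀ), fun x => ?_⟩⟩
  unfold pol qf
  rw [← dotProduct_mulVec, add_mulVec, mulVec_add, add_dotProduct, dotProduct_add, dotProduct_add,
    dotProduct_add]
  have : x ⬝ᵥ C *ᵥ u = u ⬝ᵥ Cᵀ *ᵥ x := by
    rw [dotProduct_mulVec, ← mulVec_transpose, dotProduct_comm]
  rw [this]
  ring

theorem pol_comm (f : (κ → F) → F) (x y : κ → F) : pol f x y = pol f y x := by
  unfold pol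
  rw [add_comm]
  ring

theorem f_add (f : (κ → F) → F) (x y : κ → F) : f (x + y) = f x + f y + pol f x y := by
  unfold pol
  ring

namespace IsQF

variable {f : (κ → F) → F} (hf : IsQF f)

include hf

theorem smul (t : F) (x : κ → F) : f (t • x) = t ^ 2 * f x := hf.1 t x

theorem zero : f 0 = 0 := by
  have := hf.1 0 0
  rw [zero_smul] at this
  rw [this]
  ring

theorem pol_add_right (u x y : κ → F) : pol f u (x + y) = pol f u x + pol f u y := by
  obtain ⟨ρ, h⟩ := hf.2 u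
  rw [h, h, h, dotProduct_add]

theorem pol_smul_right (u : κ → F) (t : F) (x : κ → F) : pol f u (t • x) = t * pol f u x := by
  obtain ⟨ρ, h⟩ := hf.2 u
  rw [h, h, dotProduct_smul, smul_eq_mul]

theorem pol_add_left (x y u : κ → F) : pol f (x + y) u = pol f x u + pol f y u := by
  rw [pol_comm, hf.pol_add_right, pol_comm f u x, pol_comm f u y]

theorem pol_smul_left (t : F) (x u : κ → F) : pol f (t • x) u = t * pol f x u := by
  rw [pol_comm, hf.pol_smul_right, pol_comm]

theorem pol_self (x : κ → F) : pol f x x = 2 * f x := by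
  unfold pol
  have : x + x = (2 : F) • x := by rw [two_smul]
  rw [this, hf.smul]
  ring

theorem comp (N : Matrix κ κ F) : IsQF (fun x => f (N *ᵥ x)) := by
  refine ⟨fun t x => ?_, fun u => ?_⟩
  · show f (N *ᵥ (t • x)) = _
    rw [mulVec_smul, hf.smul]
  · obtain ⟨ρ, h⟩ := hf.2 (N *ᵥ u)
    refine ⟨ρ ᵥ* N, fun x => ?_⟩
    rw [← dotProduct_mulVec, ← h]
    unfold pol
    simp only [mulVec_add]

end IsQF

theorem pol_comp (f : (κ → F) → F) (N : Matrix κ κ F) (x y : κ → F) :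
    pol (fun x => f (N *ᵥ x)) x y = pol f (N *ᵥ x) (N *ᵥ y) := by
  unfold pol
  simp only [mulVec_add]

end api

section coords

variable {F : Type*} [Field F] {m : ℕ}

/-- coordinates -/
def mkv (a b : F) (z : Fin m → F) : Fin (m + 2) → F := vecCons a (vecCons b z)

theorem mkv_surj (x : Fin (m + 2) → F) : ∃ a b z, x = mkv a b z := by
  refine ⟨x 0, x 1, fun k => x k.succ.succ, ?_⟩
  funext i
  refine Fin.cases rfl (fun i => ?_) i
  refine Fin.cases rfl (fun i => rfl) i

theorem mkv_inj {a b a' b' : F} {z z' : Fin m → F} (h : mkv a b z = mkv a' b' z') :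
    a = a' ∧ b = b' ∧ z = z' := by
  refine ⟨congrFun h 0, congrFun h 1, ?_⟩
  funext k
  exact congrFun h k.succ.succ

theorem mkv_add (a b a' b' : F) (z z' : Fin m → F) :
    mkv a b z + mkv a' b' z' = mkv (a + a') (b + b') (z + z') := by
  funext i
  refine Fin.cases rfl (fun i => ?_) i
  refine Fin.cases rfl (fun i => rfl) i

theorem smul_mkv (t a b : F) (z : Fin m → F) : t • mkv a b z = mkv (t * a) (t * b) (t • z) := by
  funext i
  refine Fin.cases rfl (fun i => ?_) i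
  refine Fin.cases rfl (fun i => rfl) i

theorem mkv_dot (a b a' b' : F) (z z' : Fin m → F) :
    mkv a b z ⬝ᵥ mkv a' b' z' = a * a' + b * b' + z ⬝ᵥ z' := by
  unfold mkv
  rw [cons_dotProduct_cons, cons_dotProduct_cons, add_assoc]

theorem mkv_zero : mkv (0 : F) 0 (0 : Fin m → F) = 0 := by
  funext i
  refine Fin.cases rfl (fun i => ?_) i
  refine Fin.cases rfl (fun i => rfl) i

theorem mkv_eq (a b : F) (z : Fin m → F) :
    mkv a b z = a • mkv 1 0 0 + (b • mkv 0 1 0 + mkv 0 0 z) := by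
  rw [smul_mkv, smul_mkv, mkv_add, mkv_add]
  simp

/-- normal form of a quadratic form for which `e₀, e₁` are orthogonal to the other basis vectors -/
theorem nf_of_perp {f : (Fin (m + 2) → F) → F} (hf : IsQF f)
    (h0 : ∀ z, pol f (mkv 1 0 0) (mkv 0 0 z) = 0) (h1 : ∀ z, pol f (mkv 0 1 0) (mkv 0 0 z) = 0)
    (a b : F) (z : Fin m → F) :
    f (mkv a b z) = f (mkv 1 0 0) * a ^ 2 + pol f (mkv 1 0 0) (mkv 0 1 0) * (a * b)
      + f (mkv 0 1 0) * b ^ 2 + f (mkv 0 0 z) := by
  rw [mkv_eq, f_add f, f_add f (b • _), hf.smul, hf.smul, hf.pol_add_right, hf.pol_smul_left,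
    hf.pol_smul_left, hf.pol_smul_left, hf.pol_smul_right, h0, h1]
  ring

/-- the shear `x ↦ x + (r · x'') e₀` -/
def shA (r : Fin m → F) : Matrix (Fin (m + 2)) (Fin (m + 2)) F :=
  1 + vecMulVec (mkv 1 0 0) (mkv 0 0 r)

/-- the shear `x ↦ x + (r · x'') e₁` -/
def shB (r : Fin m → F) : Matrix (Fin (m + 2)) (Fin (m + 2)) F :=
  1 + vecMulVec (mkv 0 1 0) (mkv 0 0 r)

/-- scaling of the last coordinates -/
def scD (lam : F) : Matrix (Fin (m + 2)) (Fin (m + 2)) F :=
  diagonal (mkv 1 1 (fun _ => lam))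

theorem shA_mulVec (r : Fin m → F) (a b : F) (z : Fin m → F) :
    shA r *ᵥ mkv a b z = mkv (a + r ⬝ᵥ z) b z := by
  unfold shA
  rw [one_add_vmv_mulVec, mkv_dot, smul_mkv, mkv_add]
  simp

theorem shB_mulVec (r : Fin m → F) (a b : F) (z : Fin m → F) :
    shB r *ᵥ mkv a b z = mkv a (b + r ⬝ᵥ z) z := by
  unfold shB
  rw [one_add_vmv_mulVec, mkv_dot, smul_mkv, mkv_add]
  simp

theorem scD_mulVec (lam : F) (a b : F) (z : Fin m → F) :
    scD lam *ᵥ mkv a b z = mkv a b (lam • z) := by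
  unfold scD
  funext i
  rw [mulVec_diagonal]
  refine Fin.cases ?_ (fun i => ?_) i
  · simp [mkv]
  · refine Fin.cases ?_ (fun i => ?_) i
    · simp [mkv]
    · simp [mkv]

theorem shA_inv (r : Fin m → F) : ∃ N', N' * shA r = 1 :=
  ⟨_, one_add_vmv_inv _ _ (by rw [mkv_dot]; simp)⟩

theorem shB_inv (r : Fin m → F) : ∃ N', N' * shB r = 1 :=
  ⟨_, one_add_vmv_inv _ _ (by rw [mkv_dot]; simp)⟩

theorem scD_inv {lam : F} (h : lam ≠ 0) : ∃ N', N' * (scD lam : Matrix (Fin (m + 2)) _ F) = 1 := by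
  refine ⟨scD lam⁻¹, ?_⟩
  rw [Matrix.ext_iff_mulVec]
  intro x
  obtain ⟨a, b, z, rfl⟩ := mkv_surj x
  rw [← mulVec_mulVec, scD_mulVec, scD_mulVec, smul_smul, inv_mul_cancel₀ h, one_smul, one_mulVec]

end coords

end Cfsg.Agent.Lib.Helper44
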