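import Cfsg.Agent.Lib.Helper44.Sp2c

/-!
# Transitivity of `GL` on pairs, and some counts
-/

set_option autoImplicit false
set_option linter.unusedSectionVars false

namespace Cfsg.Agent.Lib.Helper44

open Matrix

section trans

variable {F : Type*} [Field F] {κ : Type*} [Fintype κ] [DecidableEq κ]

/-- replacing a column of the identity matrix -/
theorem col_replace (w : κ → F) (i : κ) (hw : w i ≠ 0) :
    ∃ N N' : Matrix κ κ F, N' * N = 1 ∧ N *ᵥ Pi.single i 1 = w ∧ ∀ x : κ → F, x i = 0 → N *ᵥ x = x := by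
  refine ⟨1 + vecMulVec (w - Pi.single i 1) (Pi.single i 1),
    1 + vecMulVec (w - Pi.single i 1) (-(w i)⁻¹ • Pi.single i 1), ?_, ?_, ?_⟩
  · rw [Matrix.ext_iff_mulVec]
    intro y
    rw [← mulVec_mulVec, one_add_vmv_mulVec, one_add_vmv_mulVec, one_mulVec, single_dotProduct,
      smul_dotProduct, single_dotProduct, one_mul, one_mul]
    simp only [Pi.add_apply, Pi.smul_apply, Pi.sub_apply, Pi.single_eq_same, smul_eq_mul]
    have : -(w i)⁻¹ * (y i + y i * (w i - 1)) = - y i := by
      field_simp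
      ring
    rw [this, neg_smul, add_neg_cancel_right]
  · rw [one_add_vmv_mulVec, single_dotProduct, Pi.single_eq_same, one_mul, one_smul]
    abel
  · intro x hx
    rw [one_add_vmv_mulVec, single_dotProduct, hx, mul_zero, zero_smul, add_zero]

variable {m : ℕ}

theorem single_one_eq : (Pi.single 1 1 : Fin (m + 2) → F) = mkv 0 1 0 := by
  funext i
  refine Fin.cases ?_ (fun i => ?_) i
  · simp [mkv]
  · refine Fin.cases ?_ (fun i => ?_) i
    · simp [mkv]
    · have : (i.succ.succ : Fin (m + 2)) ≠ 1 := by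
        intro h
        have := congrArg Fin.val h
        simp at this
      simp [mkv, this]

theorem stab_transitive (v : Fin (m + 2) → F) (hv : ∀ t : F, v ≠ t • mkv 1 0 0) :
    ∃ N N' : Matrix (Fin (m + 2)) (Fin (m + 2)) F, N' * N = 1 ∧ N *ᵥ mkv 1 0 0 = mkv 1 0 0 ∧
      N *ᵥ mkv 0 1 0 = v := by
  obtain ⟨a, b, z, rfl⟩ := mkv_surj v
  by_cases hb : b = 0
  · have hz : z ≠ 0 := by
      rintro rfl
      apply hv a
      rw [smul_mkv, hb]
      simp
    obtain ⟨k, hk⟩ := Function.ne_iff.mp hz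
    obtain ⟨T', hT⟩ := shB_inv (F := F) (Pi.single k 1 : Fin m → F)
    have hT2 : shB (Pi.single k 1 : Fin m → F) * T' = 1 := mul_eq_one_comm.mp hT
    obtain ⟨N, N', hN, h1, h2⟩ := col_replace (shB (Pi.single k 1) *ᵥ mkv a b z) 1 (by
      rw [shB_mulVec, single_dotProduct, one_mul, hb, zero_add]
      exact hk)
    refine ⟨T' * N, N' * shB (Pi.single k 1), ?_, ?_, ?_⟩
    · rw [mul_assoc, ← mul_assoc _ T', hT2, one_mul, hN]
    · rw [← mulVec_mulVec, h2 _ rfl]
      have : shB (Pi.single k 1) *ᵥ mkv (1 : F) 0 0 = mkv 1 0 0 := by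
        rw [shB_mulVec]; simp
      conv_lhs => rw [← this]
      rw [mulVec_mulVec, hT, one_mulVec]
    · rw [← mulVec_mulVec, ← single_one_eq, h1, mulVec_mulVec, hT, one_mulVec]
  · obtain ⟨N, N', hN, h1, h2⟩ := col_replace (mkv a b z) 1 hb
    exact ⟨N, N', hN, h2 _ rfl, by rw [← single_one_eq, h1]⟩

theorem mkv_one_ne_zero : mkv (1 : F) 0 (0 : Fin m → F) ≠ 0 := by
  intro h
  have := congrFun h 0
  simp [mkv] at this

theorem pair_transitive (u v : Fin (m + 2) → F) (hu : u ≠ 0) (hv : ∀ t : F, v ≠ t • u) :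
    ∃ N N' : Matrix (Fin (m + 2)) (Fin (m + 2)) F, N' * N = 1 ∧ N *ᵥ mkv 1 0 0 = u ∧
      N *ᵥ mkv 0 1 0 = v := by
  have : Nontrivial (Fin (m + 2)) := Fin.nontrivial_iff_two_le.mpr (by omega)
  obtain ⟨N₁, N₁', h1, h1u⟩ := gl_transitive (mkv (1 : F) 0 (0 : Fin m → F)) u mkv_one_ne_zero hu
  have h1' : N₁ * N₁' = 1 := mul_eq_one_comm.mp h1
  obtain ⟨N₂, N₂', h2, h2a, h2b⟩ := stab_transitive (N₁' *ᵥ v) (by
    intro t ht
    apply hv t
    rw [← h1u, ← mulVec_smul, ← ht, mulVec_mulVec, h1', one_mulVec])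
  refine ⟨N₁ * N₂, N₂' * N₁', ?_, ?_, ?_⟩
  · rw [mul_assoc, ← mul_assoc N₁', h1, one_mul, h2]
  · rw [← mulVec_mulVec, h2a, h1u]
  · rw [← mulVec_mulVec, h2b, mulVec_mulVec, h1', one_mulVec]

end trans

section counts

variable {F : Type*} [Field F] [Fintype F] [DecidableEq F] {m : ℕ}

theorem card_V : Fintype.card (Fin (m + 2) → F) = Fintype.card F ^ (m + 2) := by
  rw [Fintype.card_fun, Fintype.card_fin]

theorem card_ne_zero_vec :
    Fintype.card F ^ (m + 2) - 1 ≤ (Finset.univ.filter fun u : Fin (m + 2) → F => u ≠ 0).card := by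
  have h := Finset.card_filter_add_card_filter_not (s := (Finset.univ : Finset (Fin (m + 2) → F)))
    (fun u => u = 0)
  rw [Finset.card_univ, card_V] at h
  have h1 : (Finset.univ.filter fun u : Fin (m + 2) → F => u = 0).card ≤ 1 := by
    rw [Finset.card_le_one]
    intro a ha b hb
    rw [(Finset.mem_filter.mp ha).2, (Finset.mem_filter.mp hb).2]
  change _ + (Finset.univ.filter fun u : Fin (m + 2) → F => u ≠ 0).card = _ at h
  omega

theorem card_off_line :
    Fintype.card F ^ (m + 2) - Fintype.card F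
      ≤ (Finset.univ.filter fun v : Fin (m + 2) → F => ∀ t : F, v ≠ t • mkv 1 0 0).card := by
  have h := Finset.card_filter_add_card_filter_not (s := (Finset.univ : Finset (Fin (m + 2) → F)))
    (fun v => ∀ t : F, v ≠ t • mkv 1 0 0)
  rw [Finset.card_univ, card_V] at h
  have h1 : (Finset.univ.filter fun v : Fin (m + 2) → F => ¬ ∀ t : F, v ≠ t • mkv 1 0 0).card
      ≤ Fintype.card F := by
    rw [← Finset.card_univ (α := F)]
    refine le_trans (Finset.card_le_card ?_)
      (Finset.card_image_le (s := Finset.univ) (f := fun t : F => t • mkv (1 : F) 0 (0 : Fin m → F)))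
    intro v hv
    have := (Finset.mem_filter.mp hv).2
    push Not at this
    obtain ⟨t, ht⟩ := this
    exact Finset.mem_image.mpr ⟨t, Finset.mem_univ _, ht.symm⟩
  omega

theorem card_quad_le (α β c : F) (hα : α ≠ 0) :
    (Finset.univ.filter fun t : F => α * t ^ 2 - β * t = c).card ≤ 2 := by
  by_cases he : (Finset.univ.filter fun t : F => α * t ^ 2 - β * t = c) = ∅
  · rw [he]; simp
  · obtain ⟨t₀, ht₀⟩ := Finset.nonempty_iff_ne_empty.mpr he
    have h0 := (Finset.mem_filter.mp ht₀).2
    refine le_trans (Finset.card_le_card ?_) (Finset.card_le_two (a := t₀) (b := β / α - t₀))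
    intro t ht
    have h1 := (Finset.mem_filter.mp ht).2
    have h2 : (t - t₀) * (α * (t + t₀) - β) = 0 := by linear_combination h1 - h0
    rw [Finset.mem_insert, Finset.mem_singleton]
    rcases mul_eq_zero.mp h2 with h3 | h3
    · left; exact sub_eq_zero.mp h3
    · right
      field_simp
      linear_combination h3

/-- the number of `v` with prescribed `pol f u v` and `f v` -/
theorem card_second_vector [CharP F 2] {f : (Fin (m + 2) → F) → F} (hf : IsQF f)
    (u : Fin (m + 2) → F) (β γ : F) (hα : f u ≠ 0) (hβ : β ≠ 0) :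
    (Finset.univ.filter fun v => pol f u v = β ∧ f v = γ).card ≤ 2 * Fintype.card F ^ m := by
  have h2 : (2 : F) = 0 := CharTwo.two_eq_zero
  set q := Fintype.card F with hq
  have hq0 : 0 < q := Fintype.card_pos
  set X := Finset.univ.filter fun v => pol f u v = β ∧ f v = γ with hX
  set X' := Finset.univ.filter fun v => pol f u v = β with hX'
  by_cases he : X = ∅
  · rw [he]; simp
  obtain ⟨w₀, hw₀⟩ := Finset.nonempty_iff_ne_empty.mpr he
  have hw₀' : pol f u w₀ = β := (Finset.mem_filter.mp hw₀).2.1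
  -- stage 1
  have s1 : X'.card * q ≤ q ^ (m + 2) := by
    rw [hq, ← card_V, ← Finset.card_univ (α := F), ← Finset.card_product, ← Finset.card_univ]
    refine Finset.card_le_card_of_injOn (fun p => p.1 + p.2 • w₀) (fun _ _ => Finset.mem_coe.mpr (Finset.mem_univ _)) ?_
    rintro ⟨v, r⟩ hp ⟨v', r'⟩ hp' h
    have hv : pol f u v = β := (Finset.mem_filter.mp (Finset.mem_product.mp (Finset.mem_coe.mp hp)).1).2
    have hv' : pol f u v' = β :=
      (Finset.mem_filter.mp (Finset.mem_product.mp (Finset.mem_coe.mp hp')).1).2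
    have h' : v + r • w₀ = v' + r' • w₀ := h
    have h3 := congrArg (pol f u) h'
    rw [hf.pol_add_right, hf.pol_add_right, hf.pol_smul_right, hf.pol_smul_right, hv, hv', hw₀'] at h3
    have hr : r = r' := by
      have : (r - r') * β = 0 := by linear_combination h3
      exact sub_eq_zero.mp ((mul_eq_zero.mp this).resolve_right hβ)
    subst hr
    rw [add_left_inj] at h'
    rw [h']
  -- stage 2
  have s2 : X.card * q ≤ 2 * X'.card := by
    rw [hq, ← Finset.card_univ (α := F), ← Finset.card_product]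
    have himg : ((X ×ˢ (Finset.univ : Finset F)).image fun p => p.1 + p.2 • u) ⊆ X' := by
      intro y hy
      obtain ⟨⟨v, t⟩, hp, rfl⟩ := Finset.mem_image.mp hy
      have hv : pol f u v = β := (Finset.mem_filter.mp (Finset.mem_product.mp hp).1).2.1
      rw [hX', Finset.mem_filter]
      refine ⟨Finset.mem_univ _, ?_⟩
      show pol f u (v + t • u) = β
      rw [hf.pol_add_right, hf.pol_smul_right, hf.pol_self, h2, hv]
      ring
    refine le_trans (Finset.card_le_mul_card_image (f := fun p : (Fin (m + 2) → F) × F => p.1 + p.2 • u)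
      (X ×ˢ (Finset.univ : Finset F)) 2 ?_) (Nat.mul_le_mul_left _ (Finset.card_le_card himg))
    intro y hy
    have hyX : pol f u y = β := (Finset.mem_filter.mp (himg hy)).2
    refine le_trans ?_ (card_quad_le (f u) β (γ - f y) hα)
    refine Finset.card_le_card_of_injOn (fun p => p.2) ?_ ?_
    · rintro ⟨v, t⟩ hp
      obtain ⟨hp1, hp2⟩ := Finset.mem_filter.mp (Finset.mem_coe.mp hp)
      have hv : f v = γ := (Finset.mem_filter.mp (Finset.mem_product.mp hp1).1).2.2
      have hp2' : v + t • u = y := hp2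
      rw [Finset.mem_coe, Finset.mem_filter]
      refine ⟨Finset.mem_univ _, ?_⟩
      show f u * t ^ 2 - β * t = γ - f y
      have e : v = y + (-t) • u := by rw [← hp2', neg_smul, add_neg_cancel_right]
      rw [e, f_add f, hf.smul, hf.pol_smul_right, pol_comm, hyX] at hv
      linear_combination hv
    · rintro ⟨v, t⟩ hp ⟨v', t'⟩ hp' h
      have hp2 : v + t • u = y := (Finset.mem_filter.mp (Finset.mem_coe.mp hp)).2
      have hp2' : v' + t' • u = y := (Finset.mem_filter.mp (Finset.mem_coe.mp hp')).2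
      have ht : t = t' := h
      subst ht
      rw [← hp2', add_left_inj] at hp2
      rw [hp2]
  have s3 : X.card * q ^ 2 ≤ 2 * q ^ m * q ^ 2 := by
    calc X.card * q ^ 2 = X.card * q * q := by ring
      _ ≤ 2 * X'.card * q := Nat.mul_le_mul_right _ s2
      _ = 2 * (X'.card * q) := by ring
      _ ≤ 2 * q ^ (m + 2) := Nat.mul_le_mul_left _ s1
      _ = 2 * q ^ m * q ^ 2 := by ring
  exact Nat.le_of_mul_le_mul_right s3 (by positivity)

end counts

end Cfsg.Agent.Lib.Helper44
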