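import Cfsg.Agent.Lib.Helper44.Sp2d

/-!
# Closed sets of quadratic forms in characteristic two: normal form and double counting
-/

set_option autoImplicit false
set_option linter.unusedSectionVars false

namespace Cfsg.Agent.Lib.Helper44

open Matrix

section

variable {F : Type*} [Field F] [Fintype F] [DecidableEq F] [CharP F 2] {m : ℕ}
  (Q : Finset ((Fin (m + 2) → F) → F))
  (hQF : ∀ f ∈ Q, IsQF f)
  (hcl : ∀ f ∈ Q, ∀ N N' : Matrix (Fin (m + 2)) (Fin (m + 2)) F, N' * N = 1 →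
    (fun x => f (N *ᵥ x)) ∈ Q)

omit [Fintype F] [DecidableEq F] [CharP F 2] in
theorem pol_comp2 (f : (Fin (m + 2) → F) → F) (A B : Matrix (Fin (m + 2)) (Fin (m + 2)) F)
    (x y : Fin (m + 2) → F) :
    pol (fun x => f (A *ᵥ (B *ᵥ x))) x y = pol f (A *ᵥ (B *ᵥ x)) (A *ᵥ (B *ᵥ y)) := by
  unfold pol
  simp only [mulVec_add]

include hQF hcl in
theorem exists_nf {f₀ : (Fin (m + 2) → F) → F} (hf₀ : f₀ ∈ Q) (x y : Fin (m + 2) → F)
    (hxy : pol f₀ x y ≠ 0) :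
    ∃ f₁ ∈ Q, f₁ (mkv 1 0 0) ≠ 0 ∧ pol f₁ (mkv 1 0 0) (mkv 0 1 0) ≠ 0 ∧
      (∀ z, pol f₁ (mkv 1 0 0) (mkv 0 0 z) = 0) ∧ (∀ z, pol f₁ (mkv 0 1 0) (mkv 0 0 z) = 0) := by
  have h2 : (2 : F) = 0 := CharTwo.two_eq_zero
  have hq0 := hQF f₀ hf₀
  obtain ⟨u, v, hu, huv⟩ : ∃ u v, f₀ u ≠ 0 ∧ pol f₀ u v ≠ 0 := by
    by_cases h1 : f₀ x = 0
    · by_cases h3 : f₀ y = 0
      · refine ⟨x + y, y, ?_, ?_⟩
        · rw [f_add f₀, h1, h3, zero_add, zero_add]; exact hxy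
        · rw [hq0.pol_add_left, hq0.pol_self, h3, mul_zero, add_zero]; exact hxy
      · exact ⟨y, x, h3, by rw [pol_comm]; exact hxy⟩
    · exact ⟨x, y, h1, hxy⟩
  have hu0 : u ≠ 0 := by
    rintro rfl
    exact hu hq0.zero
  have hv : ∀ t : F, v ≠ t • u := by
    rintro t rfl
    apply huv
    rw [hq0.pol_smul_right, hq0.pol_self, h2]
    ring
  obtain ⟨N, N', hN, hNu, hNv⟩ := pair_transitive u v hu0 hv
  have hf' := hcl f₀ hf₀ N N' hN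
  set f' : (Fin (m + 2) → F) → F := fun x => f₀ (N *ᵥ x) with hf'def
  have hq' := hQF f' hf'
  have hα : f' (mkv 1 0 0) = f₀ u := by rw [hf'def]; show f₀ (N *ᵥ _) = _; rw [hNu]
  have hβ : pol f' (mkv 1 0 0) (mkv 0 1 0) = pol f₀ u v := by
    rw [hf'def, pol_comp, hNu, hNv]
  set β := pol f' (mkv 1 0 0) (mkv 0 1 0) with hβdef
  have hβ0 : β ≠ 0 := by rw [hβ]; exact huv
  obtain ⟨ρ₀, hρ₀⟩ := hq'.2 (mkv 1 0 0)
  obtain ⟨ρ₁, hρ₁⟩ := hq'.2 (mkv 0 1 0)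
  obtain ⟨a₀, b₀, s₀, rfl⟩ := mkv_surj ρ₀
  obtain ⟨a₁, b₁, s₁, rfl⟩ := mkv_surj ρ₁
  obtain ⟨A', hA⟩ := shA_inv (F := F) (-β⁻¹ • s₁)
  obtain ⟨B', hB⟩ := shB_inv (F := F) (-β⁻¹ • s₀)
  have h1 := hcl _ (hcl f' hf' _ A' hA) _ B' hB
  refine ⟨_, h1, ?_, ?_, ?_, ?_⟩
  · show f' (shA _ *ᵥ (shB _ *ᵥ mkv 1 0 0)) ≠ 0
    rw [shB_mulVec, shA_mulVec, dotProduct_zero, dotProduct_zero, add_zero, add_zero, hα]
    exact hu
  · rw [pol_comp2, shB_mulVec, shA_mulVec, shB_mulVec, shA_mulVec, dotProduct_zero,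
      dotProduct_zero, add_zero, add_zero]
    exact hβ0
  · intro z
    rw [pol_comp2, shB_mulVec, shA_mulVec, shB_mulVec, shA_mulVec, dotProduct_zero,
      dotProduct_zero, add_zero, add_zero, zero_add, zero_add, mkv_eq (_ ⬝ᵥ z), hq'.pol_add_right,
      hq'.pol_add_right, hq'.pol_smul_right, hq'.pol_smul_right, hq'.pol_self, ← hβdef, hρ₀ (mkv 0 0 z),
      mkv_dot, h2]
    simp only [smul_dotProduct, smul_eq_mul]
    field_simp
    ring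
  · intro z
    rw [pol_comp2, shB_mulVec, shA_mulVec, shB_mulVec, shA_mulVec, dotProduct_zero,
      dotProduct_zero, add_zero, add_zero, zero_add, zero_add, mkv_eq (_ ⬝ᵥ z), hq'.pol_add_right,
      hq'.pol_add_right, hq'.pol_smul_right, hq'.pol_smul_right, hq'.pol_self,
      pol_comm f' (mkv 0 1 0) (mkv 1 0 0), ← hβdef, hρ₁ (mkv 0 0 z),
      mkv_dot, h2]
    simp only [smul_dotProduct, smul_eq_mul]
    field_simp
    ring

end

end Cfsg.Agent.Lib.Helper44
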