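import Cfsg.Agent.Lib.Helper44.Sp2e

/-!
# Double counting for an orbit of quadratic forms
-/

set_option autoImplicit false
set_option linter.unusedSectionVars false

namespace Cfsg.Agent.Lib.Helper44

open Matrix

section

variable {F : Type*} [Field F] [Fintype F] [DecidableEq F] {m : ℕ}
  (O : Finset ((Fin (m + 2) → F) → F))
  (hQF : ∀ f ∈ O, IsQF f)
  (hcl : ∀ f ∈ O, ∀ N N' : Matrix (Fin (m + 2)) (Fin (m + 2)) F, N' * N = 1 →
    (fun x => f (N *ᵥ x)) ∈ O)

omit [Fintype F] [DecidableEq F] in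
theorem comp_injective (N N' : Matrix (Fin (m + 2)) (Fin (m + 2)) F) (hN : N' * N = 1)
    {f g : (Fin (m + 2) → F) → F} (h : (fun x => f (N' *ᵥ x)) = fun x => g (N' *ᵥ x)) : f = g := by
  funext x
  have := congrFun h (N *ᵥ x)
  simpa only [mulVec_mulVec, hN, one_mulVec] using this

include hcl in
theorem step_A (f₁ : (Fin (m + 2) → F) → F)
    (horb : ∀ f ∈ O, ∃ N N' : Matrix (Fin (m + 2)) (Fin (m + 2)) F, N' * N = 1 ∧
      f = fun x => f₁ (N *ᵥ x)) (α : F) :
    (Fintype.card F ^ (m + 2) - 1) * (O.filter fun f => f (mkv 1 0 0) = α).card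
      ≤ O.card * (Finset.univ.filter fun u => f₁ u = α).card := by
  have : Nontrivial (Fin (m + 2)) := Fin.nontrivial_iff_two_le.mpr (by omega)
  refine le_trans (Nat.mul_le_mul_right _ card_ne_zero_vec)
    (Finset.card_mul_le_card_mul (fun (u : Fin (m + 2) → F) (f : (Fin (m + 2) → F) → F) => f u = α)
      ?_ ?_)
  · intro u hu
    have hu0 : u ≠ 0 := (Finset.mem_filter.mp hu).2
    obtain ⟨N, N', hN, hNu⟩ := gl_transitive (mkv (1 : F) 0 (0 : Fin m → F)) u mkv_one_ne_zero hu0
    have hN' : N * N' = 1 := mul_eq_one_comm.mp hN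
    refine Finset.card_le_card_of_injOn (fun f => fun x => f (N' *ᵥ x)) ?_ ?_
    · intro f hf
      obtain ⟨hfO, hfα⟩ := Finset.mem_filter.mp (Finset.mem_coe.mp hf)
      rw [Finset.mem_coe, Finset.mem_bipartiteAbove]
      refine ⟨hcl f hfO N' N hN', ?_⟩
      show f (N' *ᵥ u) = α
      rw [← hNu, mulVec_mulVec, hN, one_mulVec, hfα]
    · intro f _ g _ h
      exact comp_injective N N' hN h
  · intro f hf
    obtain ⟨N, N', hN, rfl⟩ := horb f hf
    refine Finset.card_le_card_of_injOn (fun u => N *ᵥ u) ?_ ?_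
    · intro u hu
      have := ((Finset.mem_bipartiteBelow _).mp (Finset.mem_coe.mp hu)).2
      rw [Finset.mem_coe, Finset.mem_filter]
      exact ⟨Finset.mem_univ _, this⟩
    · intro u _ v _ h
      have h' : N *ᵥ u = N *ᵥ v := h
      have := congrArg (fun w => N' *ᵥ w) h'
      simpa only [mulVec_mulVec, hN, one_mulVec] using this

include hQF hcl in
theorem step_B [CharP F 2] (α β γ : F) (hα : α ≠ 0) (hβ : β ≠ 0) :
    (Fintype.card F ^ (m + 2) - Fintype.card F) *
        (O.filter fun f => f (mkv 1 0 0) = α ∧ pol f (mkv 1 0 0) (mkv 0 1 0) = β ∧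
          f (mkv 0 1 0) = γ).card
      ≤ (O.filter fun f => f (mkv 1 0 0) = α).card * (2 * Fintype.card F ^ m) := by
  refine le_trans (Nat.mul_le_mul_right _ card_off_line)
    (Finset.card_mul_le_card_mul (fun (v : Fin (m + 2) → F) (f : (Fin (m + 2) → F) → F) =>
      pol f (mkv 1 0 0) v = β ∧ f v = γ) ?_ ?_)
  · intro v hv
    have hv0 := (Finset.mem_filter.mp hv).2
    obtain ⟨N, N', hN, hN0, hN1⟩ := stab_transitive v hv0
    have hN' : N * N' = 1 := mul_eq_one_comm.mp hN
    have e0 : N' *ᵥ mkv 1 0 0 = mkv 1 0 0 := by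
      conv_lhs => rw [← hN0]
      rw [mulVec_mulVec, hN, one_mulVec]
    have e1 : N' *ᵥ v = mkv 0 1 0 := by
      rw [← hN1, mulVec_mulVec, hN, one_mulVec]
    refine Finset.card_le_card_of_injOn (fun f => fun x => f (N' *ᵥ x)) ?_ ?_
    · intro f hf
      obtain ⟨hfO, hfα, hfβ, hfγ⟩ := Finset.mem_filter.mp (Finset.mem_coe.mp hf)
      rw [Finset.mem_coe, Finset.mem_bipartiteAbove, Finset.mem_filter]
      refine ⟨⟨hcl f hfO N' N hN', ?_⟩, ?_, ?_⟩
      · show f (N' *ᵥ _) = α
        rw [e0, hfα]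
      · rw [pol_comp, e0, e1, hfβ]
      · show f (N' *ᵥ v) = γ
        rw [e1, hfγ]
    · intro f _ g _ h
      exact comp_injective N N' hN h
  · intro f hf
    obtain ⟨hfO, hfα⟩ := Finset.mem_filter.mp hf
    refine le_trans (Finset.card_le_card ?_)
      (card_second_vector (hQF f hfO) (mkv 1 0 0) β γ (by rw [hfα]; exact hα) hβ)
    intro v hv
    have := ((Finset.mem_bipartiteBelow _).mp hv).2
    rw [Finset.mem_filter]
    exact ⟨Finset.mem_univ _, this⟩

end

end Cfsg.Agent.Lib.Helper44
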