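import Cfsg.Agent.Lib.Helper44.Sp2f

/-!
# The size of a closed set of quadratic forms in characteristic two
-/

set_option autoImplicit false
set_option linter.unusedSectionVars false

namespace Cfsg.Agent.Lib.Helper44

open Matrix

section

variable {F : Type*} [Field F] [Fintype F] [DecidableEq F] [CharP F 2] {m : ℕ}
  (O : Finset ((Fin (m + 2) → F) → F))
  (hcl : ∀ f ∈ O, ∀ N N' : Matrix (Fin (m + 2)) (Fin (m + 2)) F, N' * N = 1 →
    (fun x => f (N *ᵥ x)) ∈ O)
  (f₁ : (Fin (m + 2) → F) → F) (hf₁ : f₁ ∈ O) (α β γ : F) (g : (Fin m → F) → F)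
  (hnf : ∀ a b z, f₁ (mkv a b z) = α * a ^ 2 + β * (a * b) + γ * b ^ 2 + g z)
  (hg : ∀ (t : F) z, g (t • z) = t ^ 2 * g z)

omit [Fintype F] [DecidableEq F] in
theorem sq_inj {a b : F} (h : a ^ 2 = b ^ 2) : a = b := by
  have h2 : (2 : F) = 0 := CharTwo.two_eq_zero
  have : (a - b) ^ 2 = 0 := by linear_combination h + (b ^ 2 - a * b) * h2
  exact sub_eq_zero.mp (eq_zero_of_pow_eq_zero this)

include hcl hf₁ hnf hg in
theorem step_N (hβ : β ≠ 0) (Λ : Finset F) (hΛ0 : ∀ lam ∈ Λ, lam ≠ 0)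
    (hΛ : ∀ lam ∈ Λ, ∀ mu ∈ Λ, (∀ z, lam ^ 2 * g z = mu ^ 2 * g z) → lam = mu) :
    Λ.card * (Fintype.card F ^ m * Fintype.card F ^ m)
      ≤ (O.filter fun f => f (mkv 1 0 0) = α ∧ pol f (mkv 1 0 0) (mkv 0 1 0) = β ∧
          f (mkv 0 1 0) = γ).card := by
  have h2 : (2 : F) = 0 := CharTwo.two_eq_zero
  have hg0 : g 0 = 0 := by
    have := hg 0 0
    rw [zero_smul] at this
    rw [this]; ring
  have hform : ∀ (lam : F) (r r' : Fin m → F) (a b : F) (z : Fin m → F),
      f₁ (scD lam *ᵥ (shA r *ᵥ (shB r' *ᵥ mkv a b z)))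
        = α * (a + r ⬝ᵥ z) ^ 2 + β * ((a + r ⬝ᵥ z) * (b + r' ⬝ᵥ z)) + γ * (b + r' ⬝ᵥ z) ^ 2
          + lam ^ 2 * g z := by
    intro lam r r' a b z
    rw [shB_mulVec, shA_mulVec, scD_mulVec, hnf, hg]
  have hc : Λ.card * (Fintype.card F ^ m * Fintype.card F ^ m)
      = (Λ ×ˢ ((Finset.univ : Finset (Fin m → F)) ×ˢ (Finset.univ : Finset (Fin m → F)))).card := by
    rw [Finset.card_product, Finset.card_product, Finset.card_univ, Fintype.card_fun,
      Fintype.card_fin]
  rw [hc]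
  refine Finset.card_le_card_of_injOn
    (fun p => fun x => f₁ (scD p.1 *ᵥ (shA p.2.1 *ᵥ (shB p.2.2 *ᵥ x)))) ?_ ?_
  · rintro ⟨lam, r, r'⟩ hp
    have hlam : lam ∈ Λ := (Finset.mem_product.mp (Finset.mem_coe.mp hp)).1
    obtain ⟨D', hD⟩ := scD_inv (m := m) (hΛ0 lam hlam)
    obtain ⟨A', hA⟩ := shA_inv (F := F) r
    obtain ⟨B', hB⟩ := shB_inv (F := F) r'
    rw [Finset.mem_coe, Finset.mem_filter]
    refine ⟨hcl _ (hcl _ (hcl f₁ hf₁ _ D' hD) _ A' hA) _ B' hB, ?_, ?_, ?_⟩
    · show f₁ (scD lam *ᵥ (shA r *ᵥ (shB r' *ᵥ mkv 1 0 0))) = α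
      rw [hform, dotProduct_zero, dotProduct_zero, hg0]
      ring
    · show f₁ (scD lam *ᵥ (shA r *ᵥ (shB r' *ᵥ (mkv 1 0 0 + mkv 0 1 0))))
        - f₁ (scD lam *ᵥ (shA r *ᵥ (shB r' *ᵥ mkv 1 0 0)))
        - f₁ (scD lam *ᵥ (shA r *ᵥ (shB r' *ᵥ mkv 0 1 0))) = β
      simp only [mkv_add, hform, add_zero, zero_add, dotProduct_zero, hg0]
      ring
    · show f₁ (scD lam *ᵥ (shA r *ᵥ (shB r' *ᵥ mkv 0 1 0))) = γ
      rw [hform, dotProduct_zero, dotProduct_zero, hg0]
      ring
  · rintro ⟨lam, r, r'⟩ hp ⟨mu, s, s'⟩ hp' h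
    have hlam : lam ∈ Λ := (Finset.mem_product.mp (Finset.mem_coe.mp hp)).1
    have hmu : mu ∈ Λ := (Finset.mem_product.mp (Finset.mem_coe.mp hp')).1
    have hE : ∀ a b z, α * (a + r ⬝ᵥ z) ^ 2 + β * ((a + r ⬝ᵥ z) * (b + r' ⬝ᵥ z))
        + γ * (b + r' ⬝ᵥ z) ^ 2 + lam ^ 2 * g z
        = α * (a + s ⬝ᵥ z) ^ 2 + β * ((a + s ⬝ᵥ z) * (b + s' ⬝ᵥ z))
        + γ * (b + s' ⬝ᵥ z) ^ 2 + mu ^ 2 * g z := by
      intro a b z
      have h1 := congrFun h (mkv a b z)
      have h3 : f₁ (scD lam *ᵥ (shA r *ᵥ (shB r' *ᵥ mkv a b z)))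
          = f₁ (scD mu *ᵥ (shA s *ᵥ (shB s' *ᵥ mkv a b z))) := h1
      rwa [hform, hform] at h3
    have hr' : r' = s' := by
      apply dotProduct_eq
      intro z
      have e1 := hE 1 0 z
      have e0 := hE 0 0 z
      have : β * (r' ⬝ᵥ z - s' ⬝ᵥ z) = 0 := by
        linear_combination e1 - e0 - α * (r ⬝ᵥ z - s ⬝ᵥ z) * h2
      exact sub_eq_zero.mp ((mul_eq_zero.mp this).resolve_left hβ)
    have hr : r = s := by
      apply dotProduct_eq
      intro z
      have e1 := hE 0 1 z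
      have e0 := hE 0 0 z
      have : β * (r ⬝ᵥ z - s ⬝ᵥ z) = 0 := by
        linear_combination e1 - e0 - γ * (r' ⬝ᵥ z - s' ⬝ᵥ z) * h2
      exact sub_eq_zero.mp ((mul_eq_zero.mp this).resolve_left hβ)
    subst hr' hr
    have hl : lam = mu := by
      apply hΛ lam hlam mu hmu
      intro z
      have e0 := hE 0 0 z
      linear_combination e0
    rw [hl]

include hnf in
theorem step_U_general (hα : α ≠ 0) :
    (Finset.univ.filter fun u => f₁ u = α).card + Fintype.card F ^ m ≤ Fintype.card F ^ (m + 2) := by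
  have h2 : (2 : F) = 0 := CharTwo.two_eq_zero
  have h := Finset.card_filter_add_card_filter_not (s := (Finset.univ : Finset (Fin (m + 2) → F)))
    (fun u => f₁ u = α)
  rw [Finset.card_univ, card_V] at h
  rw [← h]
  apply Nat.add_le_add_left
  have hc : Fintype.card F ^ m = (Finset.univ : Finset (Fin m → F)).card := by
    rw [Finset.card_univ, Fintype.card_fun, Fintype.card_fin]
  rw [hc]
  refine Finset.card_le_card_of_injOn (fun z => if g z = α then mkv 1 0 z else mkv 0 0 z) ?_ ?_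
  · intro z _
    rw [Finset.mem_coe, Finset.mem_filter]
    refine ⟨Finset.mem_univ _, ?_⟩
    by_cases hz : g z = α
    · simp only [if_pos hz]
      rw [hnf, hz]
      intro h3
      apply hα
      linear_combination h3
    · simp only [if_neg hz]
      rw [hnf]
      intro h3
      apply hz
      linear_combination h3
  · intro z _ z' _ h
    have key : ∀ z : Fin m → F,
        (fun k : Fin m => (if g z = α then mkv 1 0 z else mkv 0 0 z : Fin (m + 2) → F) k.succ.succ)
          = z := by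
      intro z
      split_ifs <;> rfl
    have h' : (if g z = α then mkv 1 0 z else mkv 0 0 z : Fin (m + 2) → F)
        = if g z' = α then mkv 1 0 z' else mkv 0 0 z' := h
    rw [← key z, ← key z', h']

include hnf in
theorem step_U_zero (hα : α ≠ 0) (hg0 : ∀ z, g z = 0) :
    (Finset.univ.filter fun u => f₁ u = α).card ≤ (Fintype.card F + 1) * Fintype.card F ^ m := by
  have hc : (Fintype.card F + 1) * Fintype.card F ^ m
      = (Finset.univ : Finset (Option F × (Fin m → F))).card := by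
    rw [Finset.card_univ, Fintype.card_prod, Fintype.card_option, Fintype.card_fun, Fintype.card_fin]
  rw [hc]
  refine Finset.card_le_card_of_injOn
    (fun u => (if u 0 = 0 then none else some (u 1 / u 0), fun k => u k.succ.succ))
    (fun _ _ => Finset.mem_coe.mpr (Finset.mem_univ _)) ?_
  intro u hu u' hu' h
  obtain ⟨a, b, z, rfl⟩ := mkv_surj u
  obtain ⟨a', b', z', rfl⟩ := mkv_surj u'
  have h1 : f₁ (mkv a b z) = α := (Finset.mem_filter.mp (Finset.mem_coe.mp hu)).2
  have h1' : f₁ (mkv a' b' z') = α := (Finset.mem_filter.mp (Finset.mem_coe.mp hu')).2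
  rw [hnf, hg0, add_zero] at h1 h1'
  have hz : z = z' := congrArg Prod.snd h
  have hd : (if a = 0 then none else some (b / a)) = if a' = 0 then none else some (b' / a') :=
    congrArg Prod.fst h
  subst hz
  by_cases ha : a = 0
  · by_cases ha' : a' = 0
    · subst ha ha'
      have hγ : γ ≠ 0 := by
        rintro rfl
        apply hα
        linear_combination -h1
      have : b ^ 2 = b' ^ 2 := by
        have : γ * (b ^ 2 - b' ^ 2) = 0 := by linear_combination h1 - h1'
        exact sub_eq_zero.mp ((mul_eq_zero.mp this).resolve_left hγ)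
      rw [sq_inj this]
    · rw [if_pos ha, if_neg ha'] at hd
      exact absurd hd (by simp)
  · by_cases ha' : a' = 0
    · rw [if_neg ha, if_pos ha'] at hd
      exact absurd hd (by simp)
    · rw [if_neg ha, if_neg ha', Option.some_inj] at hd
      set s := b / a with hs
      have hb : b = s * a := by rw [hs]; field_simp
      have hb' : b' = s * a' := by rw [hd]; field_simp
      rw [hb] at h1
      rw [hb'] at h1'
      have hc0 : α + β * s + γ * s ^ 2 ≠ 0 := by
        intro h0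
        apply hα
        linear_combination -h1 + a ^ 2 * h0
      have : a ^ 2 = a' ^ 2 := by
        have : (α + β * s + γ * s ^ 2) * (a ^ 2 - a' ^ 2) = 0 := by linear_combination h1 - h1'
        exact sub_eq_zero.mp ((mul_eq_zero.mp this).resolve_left hc0)
      have haa := sq_inj this
      rw [hb, hb', haa]

end

end Cfsg.Agent.Lib.Helper44
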