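import Cfsg.Agent.Lib.Helper44.Sp2g
import Cfsg.Agent.Lib.Helper44.SUf

/-!
# Lower bound for the nonlinear irreducible complex representations of `Sp_{2n}(q)`, `q` even
-/

set_option autoImplicit false
set_option linter.unusedSectionVars false

namespace Cfsg.Agent.Lib.Helper44

open Matrix Cfsg

section

variable {F : Type*} [Field F] [Fintype F] [DecidableEq F] [CharP F 2] {m : ℕ}
  (Q : Finset ((Fin (m + 2) → F) → F))
  (hQF : ∀ f ∈ Q, IsQF f)
  (hcl : ∀ f ∈ Q, ∀ N N' : Matrix (Fin (m + 2)) (Fin (m + 2)) F, N' * N = 1 →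
    (fun x => f (N *ᵥ x)) ∈ Q)

include hQF hcl in
theorem card_closed_quad {f₀ : (Fin (m + 2) → F) → F} (hf₀ : f₀ ∈ Q) (x y : Fin (m + 2) → F)
    (hxy : pol f₀ x y ≠ 0) :
    (Fintype.card F ^ (m + 2) - 1) * (Fintype.card F ^ (m + 2) - Fintype.card F)
      ≤ 2 * (Fintype.card F + 1) * Q.card := by
  classical
  obtain ⟨f₁, hf₁, hα, hβ, hp0, hp1⟩ := exists_nf Q hQF hcl hf₀ x y hxy
  have hq1 := hQF f₁ hf₁
  set α := f₁ (mkv 1 0 0) with hαdef
  set β := pol f₁ (mkv 1 0 0) (mkv 0 1 0) with hβdef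
  set γ := f₁ (mkv 0 1 0) with hγdef
  have hnf : ∀ a b z, f₁ (mkv a b z) = α * a ^ 2 + β * (a * b) + γ * b ^ 2 + f₁ (mkv 0 0 z) :=
    nf_of_perp hq1 hp0 hp1
  have hg : ∀ (t : F) (z : Fin m → F), f₁ (mkv 0 0 (t • z)) = t ^ 2 * f₁ (mkv 0 0 z) := by
    intro t z
    rw [← hq1.smul, smul_mkv, mul_zero]
  set O := Q.filter fun f => ∃ N N' : Matrix (Fin (m + 2)) (Fin (m + 2)) F, N' * N = 1 ∧
    f = fun x => f₁ (N *ᵥ x) with hO
  have hOQ : O ⊆ Q := Finset.filter_subset _ _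
  have hOQF : ∀ f ∈ O, IsQF f := fun f hf => hQF f (hOQ hf)
  have horb : ∀ f ∈ O, ∃ N N' : Matrix (Fin (m + 2)) (Fin (m + 2)) F, N' * N = 1 ∧
      f = fun x => f₁ (N *ᵥ x) := fun f hf => (Finset.mem_filter.mp hf).2
  have hOcl : ∀ f ∈ O, ∀ N N' : Matrix (Fin (m + 2)) (Fin (m + 2)) F, N' * N = 1 →
      (fun x => f (N *ᵥ x)) ∈ O := by
    intro f hf M M' hM
    obtain ⟨N, N', hN, rfl⟩ := horb f hf
    rw [hO, Finset.mem_filter]
    refine ⟨hcl _ (hOQ hf) M M' hM, N * M, M' * N', ?_, ?_⟩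
    · rw [mul_assoc, ← mul_assoc N', hN, one_mul, hM]
    · funext x
      show f₁ (N *ᵥ (M *ᵥ x)) = _
      rw [mulVec_mulVec]
  have hf₁O : f₁ ∈ O := by
    rw [hO, Finset.mem_filter]
    refine ⟨hf₁, 1, 1, one_mul _, ?_⟩
    funext x
    rw [one_mulVec]
  have hA := step_A O hOcl f₁ horb α
  have hB := step_B O hOQF hOcl α β γ hα hβ
  set q := Fintype.card F with hq
  have hq2 : 2 ≤ q := Fintype.one_lt_card
  set P := q ^ m with hP
  have hP0 : 0 < P := by positivity
  set a := q ^ (m + 2) - 1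
  set b := q ^ (m + 2) - q
  set M₁ := (O.filter fun f => f (mkv 1 0 0) = α).card
  set N₀ := (O.filter fun f => f (mkv 1 0 0) = α ∧ pol f (mkv 1 0 0) (mkv 0 1 0) = β ∧
          f (mkv 0 1 0) = γ).card
  set U := (Finset.univ.filter fun u => f₁ u = α).card
  -- a uniform statement
  obtain ⟨L, hL0, hLN, hLU⟩ : ∃ L : ℕ, 0 < L ∧ L * (P * P) ≤ N₀ ∧ U ≤ (q + 1) * L * P := by
    by_cases hg0 : ∀ z, f₁ (mkv 0 0 z) = 0
    · refine ⟨1, one_pos, ?_, ?_⟩
      · have := step_N O hOcl f₁ hf₁O α β γ (fun z => f₁ (mkv 0 0 z)) hnf hg hβ {1}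
          (by intro l hl; rw [Finset.mem_singleton.mp hl]; exact one_ne_zero)
          (by intro l hl k hk _; rw [Finset.mem_singleton.mp hl, Finset.mem_singleton.mp hk])
        rwa [Finset.card_singleton] at this
      · rw [mul_one]
        exact step_U_zero f₁ α β γ (fun z => f₁ (mkv 0 0 z)) hnf hα hg0
    · push Not at hg0
      obtain ⟨z₀, hz₀⟩ := hg0
      refine ⟨q - 1, by omega, ?_, ?_⟩
      · have := step_N O hOcl f₁ hf₁O α β γ (fun z => f₁ (mkv 0 0 z)) hnf hg hβ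
          (Finset.univ.filter fun l : F => l ≠ 0)
          (by intro l hl; exact (Finset.mem_filter.mp hl).2)
          (by
            intro l _ k _ h
            exact sq_inj (mul_right_cancel₀ hz₀ (h z₀)))
        have hc : (Finset.univ.filter fun l : F => l ≠ 0).card = q - 1 := by
          rw [Finset.filter_ne', Finset.card_erase_of_mem (Finset.mem_univ _), Finset.card_univ]
        rwa [hc] at this
      · have := step_U_general f₁ α β γ (fun z => f₁ (mkv 0 0 z)) hnf hα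
        have e : q ^ (m + 2) = (q + 1) * (q - 1) * P + P := by
          obtain ⟨r, hr⟩ : ∃ r, q = r + 1 := ⟨q - 1, by omega⟩
          rw [hP, hr, Nat.add_sub_cancel]
          ring
        change U + P ≤ q ^ (m + 2) at this
        omega
  have h1 : a * b * (L * (P * P)) ≤ 2 * (q + 1) * O.card * (L * (P * P)) := by
    calc a * b * (L * (P * P)) ≤ a * b * N₀ := Nat.mul_le_mul_left _ hLN
      _ = a * (b * N₀) := by ring
      _ ≤ a * (M₁ * (2 * P)) := Nat.mul_le_mul_left _ hB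
      _ = a * M₁ * (2 * P) := by ring
      _ ≤ O.card * U * (2 * P) := Nat.mul_le_mul_right _ hA
      _ ≤ O.card * ((q + 1) * L * P) * (2 * P) :=
          Nat.mul_le_mul_right _ (Nat.mul_le_mul_left _ hLU)
      _ = 2 * (q + 1) * O.card * (L * (P * P)) := by ring
  have h2 := Nat.le_of_mul_le_mul_right h1 (by positivity)
  exact h2.trans (Nat.mul_le_mul_left _ (Finset.card_le_card hOQ))

end

theorem charP_two_of_even_card {F : Type*} [Field F] [Fintype F] (h : Even (Fintype.card F)) :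
    CharP F 2 := by
  obtain ⟨p, hp⟩ := CharP.exists F
  have hpp : p.Prime := CharP.char_is_prime F p
  have : Fact p.Prime := ⟨hpp⟩
  obtain ⟨k, -, hk⟩ := FiniteField.card F p
  rw [hk] at h
  have h2 : Even p := (Nat.even_pow.mp h).1
  have : p = 2 := (Nat.Prime.even_iff hpp).mp h2
  subst this
  exact hp

theorem sp_even_degree_bound {F : Type*} [Field F] [Fintype F] [DecidableEq F] (m : ℕ)
    (heven : Even (Fintype.card F)) (k : ℕ)
    (ρ : Representation ℂ (symplecticGroup (Fin (m + 2)) F) (Fin k → ℂ)) (hρ : ρ.IsIrreducible)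
    (hk : 2 ≤ k) :
    (Fintype.card F ^ (m + 2) - 1) * (Fintype.card F ^ (m + 2) - Fintype.card F)
      / (2 * (Fintype.card F + 1)) ≤ k := by
  classical
  have := charP_two_of_even_card heven
  let R : symplecticGroup (Fin (m + 2)) F →* Matrix (Fin k) (Fin k) ℂ :=
    ((LinearMap.toMatrixAlgEquiv' (R := ℂ) (n := Fin k)).toAlgHom.toRingHom.toMonoidHom).comp ρ
  obtain ⟨Q, hQk, hQF, hcl, htriv⟩ := exists_quad_weights m R
  have hQF' : ∀ f ∈ Q, IsQF f := by
    intro f hf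
    obtain ⟨C, rfl⟩ := hQF f hf
    exact isQF_qf C
  by_cases h0 : ∀ f ∈ Q, ∀ x y, f (x + y) = f x + f y
  · exfalso
    have hR : ∀ g, R g = 1 := htriv h0
    have hρ1 : ∀ g, ρ g = 1 := fun g =>
      (LinearMap.toMatrixAlgEquiv' (R := ℂ) (n := Fin k)).injective (by rw [map_one]; exact hR g)
    have := degree_of_trivial_irr ρ hρ hρ1
    nlinarith
  · push Not at h0
    obtain ⟨f₀, hf₀, x, y, hxy⟩ := h0
    apply Nat.div_le_of_le_mul
    refine le_trans (card_closed_quad Q hQF' hcl hf₀ x y ?_) (Nat.mul_le_mul_left _ hQk)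
    unfold pol
    intro h
    apply hxy
    linear_combination h

end Cfsg.Agent.Lib.Helper44
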