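import Cfsg.Agent.Lib.Helper44.SuzBound
import Cfsg.Agent.Lib.Helper44.GL2Types

set_option autoImplicit false

namespace Cfsg.Agent.Lib.Helper44

open Cfsg
open scoped ComplexConjugate

variable {F : Type*} [Field F] [Fintype F] [CharP F 2]

omit [CharP F 2] in
theorem suz_exists_torus {m : ℕ} (hF : Fintype.card F = 2 ^ (2 * m + 1)) {s : F} (hs : s ≠ 0) :
    ∃ k : Fˣ, (k : F) * (k : F) ^ (2 ^ (m + 1)) = s := by
  refine ⟨Units.mk0 (s ^ (2 ^ (m + 1) - 1)) (pow_ne_zero _ hs), ?_⟩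
  rw [Units.val_mk0, ← pow_succ', ← pow_mul]
  have h1 : 1 ≤ 2 ^ (m + 1) := Nat.one_le_two_pow
  have h2 : (2 ^ (m + 1) - 1) * (2 ^ (m + 1) + 1) = 2 * (Fintype.card F - 1) + 1 := by
    rw [hF]
    obtain ⟨x, hx⟩ := Nat.exists_eq_add_of_le h1
    have h3 : 2 ^ (2 * m + 1) * 2 = 2 ^ (m + 1) * 2 ^ (m + 1) := by
      rw [← pow_succ, ← pow_add]; congr 1; omega
    rw [hx] at h3 ⊢
    have e1 : 1 + x - 1 = x := by omega
    rw [e1]
    have h4 : 1 ≤ 2 ^ (2 * m + 1) := Nat.one_le_two_pow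
    obtain ⟨y, hy⟩ := Nat.exists_eq_add_of_le h4
    rw [hy] at h3 ⊢
    have e2 : 1 + y - 1 = y := by omega
    rw [e2]
    nlinarith
  rw [h2, pow_succ, pow_mul', FiniteField.pow_card_sub_one_eq_one s hs, one_pow, one_mul]

variable {Q : Type*} [Group Q]

/-- The centre of the Suzuki 2-group as an additive character. -/
def suzZ (t : F → F → Q) (σ : F →+* F)
    (hmul : ∀ a b c d, t a b * t c d = t (a + c) (b + d + σ a * c)) : AddChar F Q where
  toFun b := t 0 b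
  map_zero_eq_one' := by
    have := hmul 0 0 0 0
    simp only [add_zero, map_zero, mul_zero] at this
    exact mul_eq_left.mp this
  map_add_eq_mul' b b' := by
    rw [hmul]; simp

omit [Fintype F] [CharP F 2] in
theorem suzZ_apply (t : F → F → Q) (σ : F →+* F)
    (hmul : ∀ a b c d, t a b * t c d = t (a + c) (b + d + σ a * c)) (b : F) : suzZ t σ hmul b = t 0 b := rfl

omit [Fintype F] [CharP F 2] in
theorem suzZ_mem_center (t : F → F → Q) (ht : Function.Surjective (fun p : F × F => t p.1 p.2)) (σ : F →+* F)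
    (hmul : ∀ a b c d, t a b * t c d = t (a + c) (b + d + σ a * c)) (b : F) :
    suzZ t σ hmul b ∈ Subgroup.center Q := by
  rw [Subgroup.mem_center_iff]
  intro g
  obtain ⟨⟨c, d⟩, rfl⟩ := ht g
  simp only [suzZ_apply, hmul]
  congr 1
  · rw [add_comm]
  · simp; ring

/-- The Landazuri–Seitz bound for groups containing a Suzuki 2-group normalised by a torus. -/
theorem suz_degree_bound {m : ℕ} (hF : Fintype.card F = 2 ^ (2 * m + 1)) {G : Type*} [Group G] [Finite G] [Finite Q]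
    (ι : Q →* G) (t : F → F → Q) (ht : Function.Bijective (fun p : F × F => t p.1 p.2)) (σ : F →+* F)
    (hσ' : ∀ x, σ x = x ^ (2 ^ (m + 1))) (hσ : ∀ x, σ (σ x) = x ^ 2)
    (hmul : ∀ a b c d, t a b * t c d = t (a + c) (b + d + σ a * c)) (d : Fˣ → G)
    (hd : ∀ (k : Fˣ) (a b : F), d k * ι (t a b) = ι (t (k * a) (k * σ k * b)) * d k)
    {χ : G → ℂ} (hχ : IsCharacter G χ) (hnt : ∃ b, χ (ι (t 0 b)) ≠ χ 1) {k : ℕ} (hk : χ 1 = k) :
    2 ^ m * (2 ^ (2 * m + 1) - 1) ≤ k := by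
  classical
  have := Fintype.ofFinite Q
  obtain ⟨ψ, hψ⟩ := exists_primitive_addChar F
  set zQ := suzZ t σ hmul with hzQ
  set zG : AddChar F G := ι.compAddChar zQ with hzG
  have hzG_apply : ∀ b, zG b = ι (t 0 b) := fun b => rfl
  have hcl := Cfsg.Agent.Lib.Helper20.isClassFunction_of_isCharacter hχ
  have hinv : ∀ s : F, s ≠ 0 → mS ψ zG χ s = mS ψ zG χ 1 := by
    intro s hs
    obtain ⟨k, hk⟩ := suz_exists_torus hF hs
    have := mS_mul_of_isConj ψ zG hcl hs (fun x => by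
      rw [isConj_iff]
      refine ⟨d k, ?_⟩
      rw [mul_inv_eq_iff_eq_mul, hzG_apply, hzG_apply, hd, mul_zero, hσ', hk]) 1
    rwa [one_mul] at this
  obtain ⟨m₀, h0⟩ := mS_nat ψ zG hχ 0
  obtain ⟨m₁, h1⟩ := mS_nat ψ zG hχ 1
  have hval := apply_of_mS_uniform hψ zG χ m₁ (fun s hs => by rw [hinv s hs, h1])
  have hdeg : (k : ℂ) = m₀ + m₁ * ((Fintype.card F : ℂ) - 1) := by
    have := hval 0
    rw [AddChar.map_zero_eq_one, if_pos rfl, h0, hk] at this
    exact this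
  have hm1 : m₁ ≠ 0 := by
    rintro rfl
    obtain ⟨b, hb⟩ := hnt
    apply hb
    have e1 := hval b
    have e2 := hval 0
    rw [AddChar.map_zero_eq_one] at e2
    rw [hzG_apply] at e1
    rw [e1, e2]
    simp
  -- pass to `Q`
  have hφ : IsCharacter Q (χ ∘ ι) := Cfsg.Agent.Lib.Helper20.isCharacter_comp_hom hχ ι
  have hmQ : mS ψ zQ (χ ∘ ι) 1 = m₁ := by rw [← h1]; rfl
  obtain ⟨θ, φ', hθ, hφ', hsum, hne⟩ := exists_irr_constituent_mS ψ zQ hφ 1 (by rw [hmQ]; exact_mod_cast hm1)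
  have hcen := central_eq_of_mS_ne_zero ψ zQ (suzZ_mem_center t ht.surjective σ hmul) hθ hne
  have hθ1 := mS_eq_degree_of_central ψ zQ hcen
  obtain ⟨n, hn⟩ := Cfsg.Agent.Lib.Helper20.isCharacter_apply_one (Cfsg.Agent.Lib.Helper20.isCharacter_of_isIrrCharacter hθ)
  have hbound := suz_two_group_bound t ht σ hσ hmul hψ hθ hcen hn
  obtain ⟨l, hl⟩ := mS_nat ψ zQ hφ' 1
  have hle : n ≤ m₁ := by
    rw [hsum, mS_add, hθ1, hn, hl] at hmQ
    have : n + l = m₁ := by exact_mod_cast hmQ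
    omega
  have hn2 : 2 ^ m ≤ n := by
    rw [hF] at hbound
    have h2 : (2 ^ m) ^ 2 ≤ n ^ 2 := by
      have : 2 ^ (2 * m + 1) = 2 * (2 ^ m) ^ 2 := by rw [← pow_mul, pow_succ]; ring
      omega
    exact (Nat.pow_le_pow_iff_left (by norm_num)).mp h2
  have hq : 1 ≤ Fintype.card F := Fintype.card_pos
  have hdeg' : k = m₀ + m₁ * (Fintype.card F - 1) := by
    have : (k : ℂ) = ((m₀ + m₁ * (Fintype.card F - 1) : ℕ) : ℂ) := by
      rw [hdeg]; push_cast [Nat.cast_sub hq]; ring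
    exact_mod_cast this
  rw [hdeg', hF]
  calc 2 ^ m * (2 ^ (2 * m + 1) - 1) ≤ m₁ * (2 ^ (2 * m + 1) - 1) := Nat.mul_le_mul_right _ (hn2.trans hle)
    _ ≤ m₀ + m₁ * (2 ^ (2 * m + 1) - 1) := Nat.le_add_left _ _

end Cfsg.Agent.Lib.Helper44
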