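import Mathlib

/-!
# Abstract Heisenberg systems and their intertwining operators
-/

set_option autoImplicit false
set_option linter.unusedSectionVars false

namespace Cfsg.Agent.Lib.Helper44

open Matrix

/-- An abstract Heisenberg system: operators `r v` on `ℂ^X` multiplying up to the alternating
bicharacter `β`, with the averaging identity (which encodes irreducibility). -/
structure Heis (V : Type*) [AddCommGroup V] [Fintype V] (X : Type*) [Fintype X] [DecidableEq X] where
  r : V → Matrix X X ℂ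
  β : V → V → ℂ
  mul : ∀ v w, r v * r w = β v w • r (v + w)
  zero : r 0 = 1
  tr : ∀ v, v ≠ 0 → (r v).trace = 0
  add_left : ∀ u v w, β (u + v) w = β u w * β v w
  add_right : ∀ u v w, β u (v + w) = β u v * β u w
  zero_left : ∀ w, β 0 w = 1
  zero_right : ∀ v, β v 0 = 1
  self : ∀ v, β v v = 1
  avg : ∀ M : Matrix X X ℂ, ∑ w, r w * M * r (-w) = ((Fintype.card X : ℂ) * M.trace) • 1

namespace Heis

variable {V : Type*} [AddCommGroup V] [Fintype V] {X : Type*} [Fintype X] [DecidableEq X]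
  (H : Heis V X)

theorem β_neg_right (v : V) : H.β v (-v) = 1 := by
  have := H.add_right v v (-v)
  rw [add_neg_cancel, H.zero_right, H.self, one_mul] at this
  exact this.symm

theorem β_neg_mul (v w : V) : H.β (-v) w * H.β v w = 1 := by
  rw [← H.add_left, neg_add_cancel, H.zero_left]

theorem β_swap (v w : V) : H.β v w * H.β w v = 1 := by
  have := H.self (v + w)
  rw [H.add_left, H.add_right, H.add_right, H.self, H.self] at this
  simpa using this

theorem β_neg_left (v w : V) : H.β (-v) w = H.β w v := by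
  have h1 := H.β_neg_mul v w
  have h2 := H.β_swap v w
  have h3 : H.β v w ≠ 0 := by
    intro h0
    rw [h0, zero_mul] at h2
    exact zero_ne_one h2
  apply mul_right_cancel₀ h3
  rw [h1, mul_comm, h2]

theorem mul_neg' (v : V) : H.r v * H.r (-v) = 1 := by
  rw [H.mul, H.β_neg_right, add_neg_cancel, H.zero, one_smul]

omit [DecidableEq X] [Fintype X] in
theorem card_ne_zero' : (Fintype.card V : ℂ) ≠ 0 := by
  have : 0 < Fintype.card V := Fintype.card_pos
  exact_mod_cast this.ne'

/-- Schur's lemma for the Heisenberg system. -/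
theorem schur (M : Matrix X X ℂ) (hM : ∀ v, M * H.r v = H.r v * M) : ∃ c : ℂ, M = c • 1 := by
  have h1 := H.avg M
  have h2 : ∑ w, H.r w * M * H.r (-w) = (Fintype.card V : ℂ) • M := by
    rw [Finset.sum_congr rfl (fun w _ => by rw [← hM, mul_assoc, H.mul_neg', mul_one])]
    rw [Finset.sum_const, Finset.card_univ, ← Nat.cast_smul_eq_nsmul ℂ]
  rw [h2] at h1
  refine ⟨(Fintype.card V : ℂ)⁻¹ * ((Fintype.card X : ℂ) * M.trace), ?_⟩
  rw [mul_smul, ← h1, smul_smul, inv_mul_cancel₀ card_ne_zero', one_smul]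

variable {G : Type*} [Group G] [DistribMulAction G V]

/-- the (unnormalised) intertwining operator attached to a symmetry of the system -/
noncomputable def T (g : G) : Matrix X X ℂ := ∑ v, H.r (g • v) * H.r (-v)

variable (hβ : ∀ (g : G) (v w : V), H.β (g • v) (g • w) = H.β v w)

include hβ in
theorem inter (g : G) (w : V) : H.r (g • w) * H.T g = H.T g * H.r w := by
  unfold T
  rw [Finset.mul_sum, Finset.sum_mul,
    ← Equiv.sum_comp (Equiv.addLeft w) (fun v => H.r (g • v) * H.r (-v) * H.r w)]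
  refine Finset.sum_congr rfl fun v _ => ?_
  rw [Equiv.coe_addLeft, ← mul_assoc, H.mul, hβ, ← smul_add, mul_assoc (H.r (g • (w + v))), H.mul,
    Matrix.smul_mul, Matrix.mul_smul]
  have e1 : -(w + v) + w = -v := by abel
  have e2 : H.β (-(w + v)) w = H.β w v := by
    rw [H.β_neg_left, H.add_right, H.self, one_mul]
  rw [e1, e2]

open Classical in
theorem trace_T (g : G) :
    (H.T g).trace = (Fintype.card X : ℂ) * (Finset.univ.filter fun v : V => g • v = v).card := by
  unfold T
  rw [Matrix.trace_sum]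
  have : ∀ v : V, (H.r (g • v) * H.r (-v)).trace
      = if g • v = v then (Fintype.card X : ℂ) else 0 := by
    intro v
    split_ifs with h
    · rw [h, H.mul_neg', Matrix.trace_one]
    · rw [H.mul, Matrix.trace_smul, H.tr _ (by rwa [← sub_eq_add_neg, sub_ne_zero]), smul_zero]
  rw [Finset.sum_congr rfl fun v _ => this v, ← Finset.sum_filter, Finset.sum_const,
    nsmul_eq_mul, mul_comm]

include hβ in
theorem T_inv_mul (g : G) :
    H.T g⁻¹ * H.T g = ((Fintype.card X : ℂ) * (H.T g).trace) • 1 := by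
  rw [← H.avg]
  conv_lhs => rw [T]
  rw [Finset.sum_mul, ← Equiv.sum_comp (MulAction.toPerm g)
    (fun v => H.r (g⁻¹ • v) * H.r (-v) * H.T g)]
  refine Finset.sum_congr rfl fun v _ => ?_
  rw [MulAction.toPerm_apply, inv_smul_smul, ← smul_neg, mul_assoc, H.inter hβ, mul_assoc]

section nonempty

variable [Nonempty X]

omit [DecidableEq X] in
theorem cardX_ne_zero : (Fintype.card X : ℂ) ≠ 0 := by
  have : 0 < Fintype.card X := Fintype.card_pos
  exact_mod_cast this.ne'

theorem trace_T_ne_zero (g : G) : (H.T g).trace ≠ 0 := by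
  classical
  rw [trace_T]
  apply mul_ne_zero cardX_ne_zero
  have : 0 < (Finset.univ.filter fun v : V => g • v = v).card :=
    Finset.card_pos.mpr ⟨0, by simp⟩
  exact_mod_cast this.ne'

/-- the scalar `T g⁻¹ * T g` -/
noncomputable def cc (g : G) : ℂ := (Fintype.card X : ℂ) * (H.T g).trace

theorem cc_ne_zero (g : G) : H.cc g ≠ 0 := mul_ne_zero cardX_ne_zero (H.trace_T_ne_zero g)

include hβ in
theorem T_mul_inv (g : G) : H.T g * H.T g⁻¹ = H.cc g⁻¹ • 1 := by
  have := H.T_inv_mul hβ g⁻¹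
  rwa [inv_inv] at this

include hβ in
theorem det_T_ne_zero (g : G) : (H.T g).det ≠ 0 := by
  intro h0
  have h1 := congrArg Matrix.det (H.T_inv_mul hβ g)
  rw [Matrix.det_mul, h0, mul_zero, Matrix.det_smul, Matrix.det_one, mul_one] at h1
  exact pow_ne_zero _ (H.cc_ne_zero g) h1.symm

include hβ in
theorem T_mul (g h : G) : ∃ c : ℂ, c ≠ 0 ∧ H.T g * H.T h = c • H.T (g * h) := by
  obtain ⟨c, hc⟩ := H.schur (H.T (g * h)⁻¹ * (H.T g * H.T h)) (by
    intro w
    calc H.T (g * h)⁻¹ * (H.T g * H.T h) * H.r w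
        = H.T (g * h)⁻¹ * (H.T g * (H.T h * H.r w)) := by simp only [mul_assoc]
      _ = H.T (g * h)⁻¹ * (H.T g * (H.r (h • w) * H.T h)) := by rw [H.inter hβ]
      _ = H.T (g * h)⁻¹ * ((H.T g * H.r (h • w)) * H.T h) := by simp only [mul_assoc]
      _ = H.T (g * h)⁻¹ * ((H.r (g • h • w) * H.T g) * H.T h) := by rw [H.inter hβ]
      _ = (H.T (g * h)⁻¹ * H.r ((g * h) • w)) * (H.T g * H.T h) := by
          rw [mul_smul]; simp only [mul_assoc]
      _ = (H.r ((g * h)⁻¹ • (g * h) • w) * H.T (g * h)⁻¹) * (H.T g * H.T h) := by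
          rw [H.inter hβ]
      _ = H.r w * (H.T (g * h)⁻¹ * (H.T g * H.T h)) := by
          rw [inv_smul_smul]; simp only [mul_assoc])
  have hc0 : c ≠ 0 := by
    rintro rfl
    have h1 := congrArg Matrix.det hc
    rw [Matrix.det_mul, Matrix.det_mul, zero_smul, Matrix.det_zero] at h1
    exact mul_ne_zero (H.det_T_ne_zero hβ _)
      (mul_ne_zero (H.det_T_ne_zero hβ _) (H.det_T_ne_zero hβ _)) h1
  have h1 : H.T (g * h) * (H.T (g * h)⁻¹ * (H.T g * H.T h)) = c • H.T (g * h) := by
    rw [hc, Matrix.mul_smul, mul_one]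
  rw [← mul_assoc, H.T_mul_inv hβ, Matrix.smul_mul, one_mul] at h1
  refine ⟨(H.cc (g * h)⁻¹)⁻¹ * c, mul_ne_zero (inv_ne_zero (H.cc_ne_zero _)) hc0, ?_⟩
  rw [mul_smul, ← h1, smul_smul, inv_mul_cancel₀ (H.cc_ne_zero _), one_smul]

end nonempty

end Heis

section dd

variable {X : Type*} [Fintype X] [DecidableEq X]

/-- the projection attached to an involution -/
noncomputable def ee (P : Matrix X X ℂ) : Matrix X X ℂ := (1 / 2 : ℂ) • (1 + P)

theorem ee_mul_self {P : Matrix X X ℂ} (hP : P * P = 1) : ee P * ee P = ee P := by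
  unfold ee
  rw [Matrix.smul_mul, Matrix.mul_smul, smul_smul, add_mul, mul_add, mul_add, hP, one_mul, mul_one,
    one_mul]
  have : (1 : Matrix X X ℂ) + P + (P + 1) = (2 : ℂ) • (1 + P) := by
    rw [two_smul]; abel
  rw [this, smul_smul]
  norm_num

theorem ee_mul_neg {P : Matrix X X ℂ} (hP : P * P = 1) : ee P * ee (-P) = 0 := by
  unfold ee
  rw [Matrix.smul_mul, Matrix.mul_smul, smul_smul, add_mul, mul_add, mul_add, mul_neg, mul_neg, hP,
    one_mul, mul_one, one_mul]
  have : (1 : Matrix X X ℂ) + -P + (P + -1) = 0 := by abel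
  rw [this, smul_zero]

theorem ee_add (P : Matrix X X ℂ) : ee P + ee (-P) = 1 := by
  unfold ee
  rw [← smul_add]
  have : (1 : Matrix X X ℂ) + P + (1 + -P) = (2 : ℂ) • 1 := by
    rw [two_smul]; abel
  rw [this, smul_smul]
  norm_num

theorem ee_comm {P M : Matrix X X ℂ} (hM : M * P = P * M) : ee P * M = M * ee P := by
  unfold ee
  rw [Matrix.smul_mul, Matrix.mul_smul, add_mul, mul_add, hM, one_mul, mul_one]

/-- the determinant of `M` on the `+1`-eigenspace of the involution `P` -/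
noncomputable def dd (P M : Matrix X X ℂ) : ℂ := det (M * ee P + ee (-P))

theorem dd_one (P : Matrix X X ℂ) : dd P 1 = 1 := by
  rw [dd, one_mul, ee_add, det_one]

theorem dd_mul {P M M' : Matrix X X ℂ} (hP : P * P = 1) (hM' : M' * P = P * M') :
    dd P (M * M') = dd P M * dd P M' := by
  unfold dd
  rw [← det_mul]
  congr 1
  have hP' : (-P) * (-P) = 1 := by rw [neg_mul_neg, hP]
  have hM'' : M' * (-P) = (-P) * M' := by rw [mul_neg, neg_mul, hM']
  have e1 : M * ee P * (M' * ee P) = M * M' * ee P := by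
    rw [mul_assoc M, ← mul_assoc (ee P) M', ee_comm hM', mul_assoc M', ee_mul_self hP, mul_assoc]
  have e2 : M * ee P * ee (-P) = 0 := by rw [mul_assoc, ee_mul_neg hP, mul_zero]
  have e3 : ee (-P) * (M' * ee P) = 0 := by
    have := ee_mul_neg hP'
    rw [neg_neg] at this
    rw [← mul_assoc, ee_comm hM'', mul_assoc, this, mul_zero]
  rw [add_mul, mul_add, mul_add, e1, e2, e3, ee_mul_self hP', add_zero, zero_add]

theorem dd_smul_one_ne_zero {P : Matrix X X ℂ} (hP : P * P = 1) {c : ℂ} (hc : c ≠ 0) :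
    dd P (c • 1) ≠ 0 := by
  intro h0
  have h1 : dd P ((c • 1) * (c⁻¹ • 1)) = dd P (c • 1) * dd P (c⁻¹ • 1) :=
    dd_mul hP (by rw [Matrix.smul_mul, Matrix.mul_smul, one_mul, mul_one])
  rw [h0, zero_mul, Matrix.smul_mul, Matrix.mul_smul, one_mul, smul_smul, mul_inv_cancel₀ hc,
    one_smul, dd_one] at h1
  exact one_ne_zero h1

end dd

namespace Heis

section W

variable {V : Type*} [AddCommGroup V] [Fintype V] {X : Type*} [Fintype X] [DecidableEq X]
  (H : Heis V X) {G : Type*} [Group G] [DistribMulAction G V] [Nonempty X]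
  (hβ : ∀ (g : G) (v w : V), H.β (g • v) (g • w) = H.β v w)
  (P : Matrix X X ℂ) (hP : P * P = 1) (hPr : ∀ v, P * H.r v = H.r (-v) * P)
  (hkey : ∀ c : ℂ, dd P (c • 1) = c * dd (-P) (c • 1))

include hPr in
theorem T_comm (g : G) : H.T g * P = P * H.T g := by
  unfold T
  rw [Finset.sum_mul, Finset.mul_sum,
    ← Equiv.sum_comp (Equiv.neg V) (fun v => H.r (g • v) * H.r (-v) * P)]
  refine Finset.sum_congr rfl fun v _ => ?_
  rw [Equiv.neg_apply, ← mul_assoc, hPr, mul_assoc (H.r (-(g • v))), hPr, smul_neg, mul_assoc]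

include hβ in
theorem dd_T_ne_zero {Q : Matrix X X ℂ} (hQ : Q * Q = 1) (hQT : ∀ g : G, H.T g * Q = Q * H.T g)
    (g : G) : dd Q (H.T g) ≠ 0 := by
  intro h0
  have h1 : dd Q (H.T g⁻¹ * H.T g) = dd Q (H.T g⁻¹) * dd Q (H.T g) := dd_mul hQ (hQT g)
  rw [h0, mul_zero, H.T_inv_mul hβ] at h1
  exact dd_smul_one_ne_zero hQ (H.cc_ne_zero g) h1

/-- the normalised intertwining operator -/
noncomputable def W (g : G) : Matrix X X ℂ := (dd (-P) (H.T g) / dd P (H.T g)) • H.T g

include hβ hP hPr hkey in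
theorem W_mul (g h : G) : H.W P (g * h) = H.W P g * H.W P h := by
  obtain ⟨c, hc0, hc⟩ := H.T_mul hβ g h
  have hcomm : ∀ g : G, H.T g * P = P * H.T g := H.T_comm P hPr
  have hP' : (-P) * (-P) = 1 := by rw [neg_mul_neg, hP]
  have hcomm' : ∀ g : G, H.T g * (-P) = (-P) * H.T g := fun g => by
    rw [mul_neg, neg_mul, hcomm]
  have b : dd P (H.T g) * dd P (H.T h) = dd P (c • 1) * dd P (H.T (g * h)) := by
    rw [← dd_mul hP (hcomm h), hc, ← dd_mul hP (hcomm (g * h)), Matrix.smul_mul, one_mul]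
  have a : dd (-P) (H.T g) * dd (-P) (H.T h) = dd (-P) (c • 1) * dd (-P) (H.T (g * h)) := by
    rw [← dd_mul hP' (hcomm' h), hc, ← dd_mul hP' (hcomm' (g * h)), Matrix.smul_mul, one_mul]
  have hD : dd (-P) (c • 1) ≠ 0 := dd_smul_one_ne_zero hP' hc0
  have hB := H.dd_T_ne_zero hβ hP hcomm (g * h)
  unfold W
  rw [Matrix.smul_mul, Matrix.mul_smul, smul_smul, hc, smul_smul]
  congr 1
  rw [div_mul_div_comm, a, b, hkey]
  field_simp

include hP hkey in
theorem W_one : H.W P (1 : G) = 1 := by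
  have hT : H.T (1 : G) = (Fintype.card V : ℂ) • 1 := by
    unfold T
    rw [Finset.sum_congr rfl (fun v _ => by rw [one_smul, H.mul_neg'])]
    rw [Finset.sum_const, Finset.card_univ, ← Nat.cast_smul_eq_nsmul ℂ]
  have hP' : (-P) * (-P) = 1 := by rw [neg_mul_neg, hP]
  have hD : dd (-P) ((Fintype.card V : ℂ) • 1) ≠ 0 := dd_smul_one_ne_zero hP' card_ne_zero'
  have hV : (Fintype.card V : ℂ) ≠ 0 := card_ne_zero'
  unfold W
  rw [hT, hkey, smul_smul]
  have : dd (-P) ((Fintype.card V : ℂ) • 1) / ((Fintype.card V : ℂ) * dd (-P) ((Fintype.card V : ℂ) • 1))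
      * (Fintype.card V : ℂ) = 1 := by
    field_simp
  rw [this, one_smul]

open Classical in
include hβ hP hPr hkey in
theorem trace_W_mul (g : G) : (H.W P g).trace * (H.W P g⁻¹).trace
    = ((Finset.univ.filter fun v : V => g • v = v).card : ℂ) := by
  have hcomm : ∀ g : G, H.T g * P = P * H.T g := H.T_comm P hPr
  have hP' : (-P) * (-P) = 1 := by rw [neg_mul_neg, hP]
  have hcomm' : ∀ g : G, H.T g * (-P) = (-P) * H.T g := fun g => by
    rw [mul_neg, neg_mul, hcomm]
  have b : dd P (H.T g⁻¹) * dd P (H.T g) = dd P (H.cc g • 1) := by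
    rw [← dd_mul hP (hcomm g), H.T_inv_mul hβ]; rfl
  have a : dd (-P) (H.T g⁻¹) * dd (-P) (H.T g) = dd (-P) (H.cc g • 1) := by
    rw [← dd_mul hP' (hcomm' g), H.T_inv_mul hβ]; rfl
  have hD : dd (-P) (H.cc g • 1) ≠ 0 := dd_smul_one_ne_zero hP' (H.cc_ne_zero g)
  have hfix : (Finset.univ.filter fun v : V => g⁻¹ • v = v) = Finset.univ.filter fun v : V => g • v = v := by
    ext v
    simp only [Finset.mem_filter, Finset.mem_univ, true_and]
    rw [inv_smul_eq_iff, eq_comm]
  have htr : (H.T g⁻¹).trace = (H.T g).trace := by rw [trace_T, trace_T, hfix]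
  have hN : (Fintype.card X : ℂ) ≠ 0 := cardX_ne_zero
  have ht := H.trace_T_ne_zero g
  unfold W
  rw [Matrix.trace_smul, Matrix.trace_smul, htr, smul_eq_mul, smul_eq_mul]
  have e : dd (-P) (H.T g) / dd P (H.T g) * (H.T g).trace
      * (dd (-P) (H.T g⁻¹) / dd P (H.T g⁻¹) * (H.T g).trace)
      = (dd (-P) (H.T g⁻¹) * dd (-P) (H.T g)) / (dd P (H.T g⁻¹) * dd P (H.T g))
        * ((H.T g).trace * (H.T g).trace) := by
    rw [← div_mul_div_comm]; ring
  rw [e, a, b, hkey]
  have e2 : (H.T g).trace = (Fintype.card X : ℂ) * ((Finset.univ.filter fun v : V => g • v = v).card : ℂ) :=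
    H.trace_T g
  have hc : H.cc g = (Fintype.card X : ℂ) * (H.T g).trace := rfl
  generalize dd (-P) (H.cc g • 1) = D at hD ⊢
  rw [hc]
  generalize (H.T g).trace = t at ht e2 ⊢
  rw [div_mul_eq_mul_div, div_eq_iff (mul_ne_zero (mul_ne_zero hN ht) hD)]
  rw [e2]
  ring

/-- the Weil representation attached to the data -/
noncomputable def rep : Representation ℂ G (X → ℂ) where
  toFun g := Matrix.toLin' (H.W P g)
  map_one' := by rw [H.W_one P hP hkey, Matrix.toLin'_one]; rfl
  map_mul' g h := by rw [H.W_mul hβ P hP hPr hkey, Matrix.toLin'_mul]; rfl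

theorem rep_character (g : G) : (H.rep hβ P hP hPr hkey).character g = (H.W P g).trace := by
  show LinearMap.trace ℂ _ (Matrix.toLin' (H.W P g)) = _
  rw [Matrix.trace_toLin'_eq]

end W

end Heis

end Cfsg.Agent.Lib.Helper44
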