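import Cfsg.Agent.Lib.Helper44.Weil1
import Cfsg.Agent.Lib.Helper44.Weights
import Cfsg.Agent.Lib.Helper7.Sp

/-!
# The concrete Heisenberg system on functions on `F^n`
-/

set_option autoImplicit false
set_option linter.unusedSectionVars false

namespace Cfsg.Agent.Lib.Helper44

open Matrix Cfsg.Agent.Lib.Helper7

section

variable {F : Type*} [Field F] [Fintype F] [DecidableEq F] {n : Type*} [Fintype n] [DecidableEq n]

/-- left half of a vector -/
def vl (v : n ⊕ n → F) : n → F := fun i => v (Sum.inl i)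
/-- right half of a vector -/
def vr (v : n ⊕ n → F) : n → F := fun i => v (Sum.inr i)

omit [Fintype F] [DecidableEq F] [Fintype n] [DecidableEq n] in
theorem vl_add (v w : n ⊕ n → F) : vl (v + w) = vl v + vl w := rfl
omit [Fintype F] [DecidableEq F] [Fintype n] [DecidableEq n] in
theorem vr_add (v w : n ⊕ n → F) : vr (v + w) = vr v + vr w := rfl
omit [Fintype F] [DecidableEq F] [Fintype n] [DecidableEq n] in
theorem vl_neg (v : n ⊕ n → F) : vl (-v) = -vl v := rfl
omit [Fintype F] [DecidableEq F] [Fintype n] [DecidableEq n] in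
theorem vr_neg (v : n ⊕ n → F) : vr (-v) = -vr v := rfl

omit [Fintype F] [DecidableEq F] in
theorem om_eq_dot (v w : n ⊕ n → F) : om n F v w = vr v ⬝ᵥ vl w - vl v ⬝ᵥ vr w := by
  rw [om_apply, Finset.sum_sub_distrib]
  rfl

/-- the Heisenberg operators -/
noncomputable def hs (ψ : AddChar F ℂ) (v : n ⊕ n → F) : Matrix (n → F) (n → F) ℂ :=
  fun x y => if y = x + vl v then ψ (vr v ⬝ᵥ (x + x + vl v)) else 0

variable (ψ : AddChar F ℂ)

theorem hs_mul_apply (v : n ⊕ n → F) (M : Matrix (n → F) (n → F) ℂ) (x y : n → F) :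
    (hs ψ v * M) x y = ψ (vr v ⬝ᵥ (x + x + vl v)) * M (x + vl v) y := by
  rw [Matrix.mul_apply, Finset.sum_eq_single (x + vl v)]
  · rw [hs, if_pos rfl]
  · intro z _ hz
    rw [hs, if_neg hz, zero_mul]
  · intro h; exact absurd (Finset.mem_univ _) h

theorem mul_hs_apply (v : n ⊕ n → F) (M : Matrix (n → F) (n → F) ℂ) (x y : n → F) :
    (M * hs ψ v) x y = M x (y - vl v) * ψ (vr v ⬝ᵥ (y + y - vl v)) := by
  rw [Matrix.mul_apply, Finset.sum_eq_single (y - vl v)]
  · rw [hs, if_pos (by abel)]
    congr 3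
    abel
  · intro z _ hz
    rw [hs, if_neg (fun h => hz (by rw [h]; abel)), mul_zero]
  · intro h; exact absurd (Finset.mem_univ _) h

theorem hs_mul (v w : n ⊕ n → F) : hs ψ v * hs ψ w = ψ (om n F w v) • hs ψ (v + w) := by
  ext x z
  rw [hs_mul_apply, Matrix.smul_apply, smul_eq_mul]
  unfold hs
  rw [vl_add, vr_add]
  by_cases h : z = x + vl v + vl w
  · rw [if_pos h, if_pos (by rw [h, add_assoc]), ← AddChar.map_add_eq_mul,
      ← AddChar.map_add_eq_mul, om_eq_dot]
    congr 1
    simp only [dotProduct_add, add_dotProduct]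
    rw [dotProduct_comm (vl w) (vr v)]
    ring
  · rw [if_neg h, if_neg (by rw [← add_assoc]; exact h), mul_zero, mul_zero]

theorem hs_zero : hs ψ (0 : n ⊕ n → F) = 1 := by
  ext x y
  unfold hs
  have h1 : vl (0 : n ⊕ n → F) = 0 := rfl
  have h2 : vr (0 : n ⊕ n → F) = 0 := rfl
  rw [h1, h2, add_zero, zero_dotProduct, AddChar.map_zero_eq_one, Matrix.one_apply]
  simp only [eq_comm]

omit [Fintype F] [DecidableEq F] [Fintype n] [DecidableEq n] in
theorem add_self_eq_zero' (h2 : (2 : F) ≠ 0) {c : n → F} (h : c + c = 0) : c = 0 := by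
  funext i
  have := congrFun h i
  rw [Pi.add_apply, ← two_mul] at this
  exact (mul_eq_zero.mp this).resolve_left h2

variable {ψ}

theorem hs_trace (hψ : ψ.IsPrimitive) (h2 : (2 : F) ≠ 0) (v : n ⊕ n → F) (hv : v ≠ 0) :
    (hs ψ v).trace = 0 := by
  unfold Matrix.trace
  simp only [Matrix.diag_apply, hs]
  by_cases ha : vl v = 0
  · have hb : vr v + vr v ≠ 0 := by
      intro h
      have hb := add_self_eq_zero' h2 h
      apply hv
      funext i
      rcases i with i | i
      · exact congrFun ha i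
      · exact congrFun hb i
    have := sum_psi_dot' hψ (vr v + vr v)
    rw [if_neg hb] at this
    rw [← this]
    refine Finset.sum_congr rfl fun x _ => ?_
    rw [ha, add_zero, if_pos rfl, add_zero, dotProduct_add, add_dotProduct]
  · refine Finset.sum_eq_zero fun x _ => ?_
    rw [if_neg]
    intro h
    exact ha (by simpa using h)

theorem sum_split (f : (n → F) → (n → F) → ℂ) :
    ∑ w : n ⊕ n → F, f (vl w) (vr w) = ∑ a, ∑ b, f a b := by
  classical
  rw [← Fintype.sum_prod_type']
  exact Fintype.sum_equiv (Equiv.sumArrowEquivProdArrow n n F) _ _ (fun w => rfl)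

theorem hs_avg (hψ : ψ.IsPrimitive) (h2 : (2 : F) ≠ 0) (M : Matrix (n → F) (n → F) ℂ) :
    ∑ w : n ⊕ n → F, hs ψ w * M * hs ψ (-w)
      = ((Fintype.card (n → F) : ℂ) * M.trace) • 1 := by
  ext x y
  rw [Matrix.sum_apply]
  have h1 : ∀ w : n ⊕ n → F, (hs ψ w * M * hs ψ (-w)) x y
      = M (x + vl w) (y + vl w) * ψ (vr w ⬝ᵥ ((x - y) + (x - y))) := by
    intro w
    rw [mul_hs_apply, hs_mul_apply, vl_neg, vr_neg, sub_neg_eq_add, mul_comm (ψ _), mul_assoc,
      ← AddChar.map_add_eq_mul]
    congr 2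
    simp only [dotProduct_add, dotProduct_sub, neg_dotProduct, dotProduct_neg, sub_neg_eq_add]
    ring
  rw [Finset.sum_congr rfl fun w _ => h1 w,
    sum_split (fun a b => M (x + a) (y + a) * ψ (b ⬝ᵥ ((x - y) + (x - y))))]
  simp only [← Finset.mul_sum, sum_psi_dot hψ]
  rw [Matrix.smul_apply, Matrix.one_apply, smul_eq_mul]
  by_cases hxy : x = y
  · subst hxy
    rw [if_pos rfl, sub_self, add_zero, if_pos rfl, ← Finset.sum_mul, mul_one, mul_comm]
    congr 1
    exact Equiv.sum_comp (Equiv.addLeft x) (fun z => M z z)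
  · rw [if_neg hxy, if_neg, mul_zero]
    · simp
    · intro h
      exact hxy (sub_eq_zero.mp (add_self_eq_zero' h2 h))

/-- the parity operator -/
def PP (F : Type*) [Field F] [DecidableEq F] (n : Type*) [DecidableEq n] [Fintype n] :
    Matrix (n → F) (n → F) ℂ :=
  fun x y => if y = -x then 1 else 0

theorem PP_mul_apply (M : Matrix (n → F) (n → F) ℂ) (x y : n → F) :
    (PP F n * M) x y = M (-x) y := by
  rw [Matrix.mul_apply, Finset.sum_eq_single (-x)]
  · rw [PP, if_pos rfl, one_mul]
  · intro z _ hz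
    rw [PP, if_neg hz, zero_mul]
  · intro h; exact absurd (Finset.mem_univ _) h

theorem mul_PP_apply (M : Matrix (n → F) (n → F) ℂ) (x y : n → F) :
    (M * PP F n) x y = M x (-y) := by
  rw [Matrix.mul_apply, Finset.sum_eq_single (-y)]
  · rw [PP, if_pos (neg_neg y).symm, mul_one]
  · intro z _ hz
    rw [PP, if_neg (fun h => hz (by rw [h, neg_neg])), mul_zero]
  · intro h; exact absurd (Finset.mem_univ _) h

theorem PP_sq : PP F n * PP F n = 1 := by
  ext x y
  rw [PP_mul_apply, PP, neg_neg, Matrix.one_apply]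
  simp only [eq_comm]

theorem PP_hs (ψ : AddChar F ℂ) (v : n ⊕ n → F) : PP F n * hs ψ v = hs ψ (-v) * PP F n := by
  ext x y
  rw [PP_mul_apply, mul_PP_apply]
  unfold hs
  rw [vl_neg, vr_neg]
  by_cases h : y = -x + vl v
  · rw [if_pos h, if_pos (by rw [h]; abel)]
    congr 1
    simp only [dotProduct_add, neg_dotProduct, dotProduct_neg]
    ring
  · rw [if_neg h, if_neg]
    intro h'
    apply h
    rw [← neg_neg y, h']
    abel

/-- an odd sign function on `F^n` -/
noncomputable def sgnF (x : n → F) : ℂ :=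
  if x = 0 then 1
  else if Fintype.equivFin (n → F) x < Fintype.equivFin (n → F) (-x) then 1 else -1

theorem sgnF_sq (x : n → F) : sgnF x * sgnF x = 1 := by
  unfold sgnF
  split_ifs <;> norm_num

theorem sgnF_mul_neg (h2 : (2 : F) ≠ 0) (x : n → F) :
    sgnF x * sgnF (-x) = if x = 0 then 1 else -1 := by
  unfold sgnF
  by_cases hx : x = 0
  · subst hx; simp
  · have hx' : -x ≠ 0 := neg_ne_zero.mpr hx
    have hne : x ≠ -x := fun h => hx (add_self_eq_zero' h2 (by
      rw [eq_neg_iff_add_eq_zero] at h; exact h))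
    have hne' : Fintype.equivFin (n → F) x ≠ Fintype.equivFin (n → F) (-x) :=
      fun h => hne ((Fintype.equivFin (n → F)).injective h)
    rw [if_neg hx, if_neg hx', if_neg hx, neg_neg]
    rcases lt_or_gt_of_ne hne' with h | h
    · rw [if_pos h, if_neg (not_lt.mpr h.le)]; norm_num
    · rw [if_neg (not_lt.mpr h.le), if_pos h]; norm_num

/-- projection onto the delta function at `0` -/
def E0 (F : Type*) [Field F] [DecidableEq F] (n : Type*) [DecidableEq n] [Fintype n] :
    Matrix (n → F) (n → F) ℂ :=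
  Matrix.diagonal fun x => if x = 0 then 1 else 0

theorem PP_E0 : PP F n * E0 F n = E0 F n := by
  ext x y
  rw [PP_mul_apply, E0, Matrix.diagonal_apply, Matrix.diagonal_apply]
  by_cases hx : x = 0
  · subst hx; simp
  · have hx' : -x ≠ 0 := neg_ne_zero.mpr hx
    simp [hx, hx']

theorem conj_PP (h2 : (2 : F) ≠ 0) :
    Matrix.diagonal (sgnF (F := F) (n := n)) * PP F n * Matrix.diagonal sgnF
      = -PP F n + (2 : ℂ) • E0 F n := by
  ext x y
  rw [Matrix.mul_diagonal, Matrix.diagonal_mul, Matrix.add_apply, Matrix.neg_apply,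
    Matrix.smul_apply, E0, Matrix.diagonal_apply, PP]
  by_cases hy : y = -x
  · subst hy
    rw [if_pos rfl, mul_one, sgnF_mul_neg h2]
    by_cases hx : x = 0
    · subst hx; simp; norm_num
    · simp [hx]
  · rw [if_neg hy]
    by_cases hxy : x = y
    · subst hxy
      have : x ≠ 0 := by rintro rfl; simp at hy
      simp [this]
    · simp [hxy]

theorem PP_key (h2 : (2 : F) ≠ 0) (c : ℂ) :
    dd (PP F n) (c • 1) = c * dd (-PP F n) (c • 1) := by
  set P := PP F n with hPdef
  set E := E0 F n with hEdef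
  set S : Matrix (n → F) (n → F) ℂ := Matrix.diagonal sgnF with hS
  have hSS : S * S = 1 := by
    rw [hS, Matrix.diagonal_mul_diagonal]
    simp only [sgnF_sq]
    exact Matrix.diagonal_one
  have hSPS : S * P * S = -P + (2 : ℂ) • E := conj_PP h2
  have hPE : P * E = E := PP_E0
  have h1 : S * ee P * S = ee (-P) + E := by
    unfold ee
    rw [Matrix.mul_smul, Matrix.smul_mul, mul_add, add_mul, mul_one, hSS, hSPS, ← add_assoc,
      smul_add, smul_smul]
    norm_num
  have h2' : S * ee (-P) * S = ee P - E := by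
    unfold ee
    rw [Matrix.mul_smul, Matrix.smul_mul, mul_add, add_mul, mul_one, hSS, mul_neg, neg_mul, hSPS,
      neg_add, neg_neg, ← add_assoc, smul_add, smul_neg, smul_smul, sub_eq_add_neg]
    norm_num
  have h3 : ee P * E = E := by
    unfold ee
    rw [Matrix.smul_mul, add_mul, one_mul, hPE, ← two_smul ℂ, smul_smul]
    norm_num
  have h4 : ee (-P) * E = 0 := by
    unfold ee
    rw [Matrix.smul_mul, add_mul, one_mul, neg_mul, hPE, add_neg_cancel, smul_zero]
  have h5 : S * (c • ee P + ee (-P)) * S = (c • ee (-P) + ee P) * (1 + (c - 1) • E) := by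
    rw [mul_add, add_mul, Matrix.mul_smul, Matrix.smul_mul, h1, h2', mul_add, mul_one,
      Matrix.mul_smul, add_mul, Matrix.smul_mul, h3, h4, smul_zero, zero_add, smul_add, sub_smul,
      one_smul]
    abel
  have h6 : (1 + (c - 1) • E).det = c := by
    have : (1 + (c - 1) • E) = Matrix.diagonal fun x : n → F => if x = 0 then c else 1 := by
      rw [hEdef, E0, ← Matrix.diagonal_one, ← Matrix.diagonal_smul, Matrix.diagonal_add]
      congr 1
      funext x
      by_cases hx : x = 0 <;> simp [hx]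
    rw [this, Matrix.det_diagonal, Finset.prod_ite_eq' Finset.univ (0 : n → F) (fun _ => c)]
    simp
  have h7 : (S * (c • ee P + ee (-P)) * S).det = (c • ee P + ee (-P)).det := by
    rw [Matrix.det_mul, Matrix.det_mul, mul_comm (S.det), mul_assoc, ← Matrix.det_mul, hSS,
      Matrix.det_one, mul_one]
  unfold dd
  rw [Matrix.smul_mul, Matrix.smul_mul, one_mul, one_mul, neg_neg, ← h7, h5, Matrix.det_mul, h6,
    mul_comm]

end

end Cfsg.Agent.Lib.Helper44
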