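import Cfsg.Agent.Lib.Helper44.Weil2
import Cfsg.Agent.Lib.Helper7.SpPerfect
import Cfsg.Agent.Lib.Helper79.Central
import Cfsg.Agent.Lib.Helper20.CharOrth
import Cfsg.Agent.Lib.Helper32.GenChar
import Cfsg.Agent.Lib.Helper4.PermChar2

/-!
# The Weil representation of `Sp_{2n}(q)`, `q` odd, and its irreducible constituents
-/

set_option autoImplicit false
set_option linter.unusedSectionVars false

namespace Cfsg.Agent.Lib.Helper44

open Matrix Cfsg Cfsg.Agent.Lib.Helper7
open scoped ComplexConjugate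

theorem two_irr_of_norm_two' {G : Type*} [Group G] [Fintype G] {R : G → ℂ} (hR : IsCharacter G R)
    (h : classInner R R = 2) :
    ∃ χ₁ χ₂ : G → ℂ, IsIrrCharacter G χ₁ ∧ IsIrrCharacter G χ₂ ∧ χ₁ ≠ χ₂ ∧ R = χ₁ + χ₂ := by
  classical
  obtain ⟨l, rfl⟩ := Cfsg.Agent.Lib.Helper20.exists_multiset_of_isCharacter hR
  rcases l.empty_or_exists_mem with rfl | ⟨χ, hχ⟩
  · simp [Cfsg.Agent.Lib.Helper20.classInner_zero_left] at h
  · obtain ⟨l', rfl⟩ := Multiset.exists_cons_of_mem hχ
    rw [Multiset.map_cons, Multiset.sum_cons] at h ⊢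
    have hφ : IsCharacter G (l'.map Subtype.val).sum := Cfsg.Agent.Lib.Helper20.isCharacter_multiset_sum l'
    generalize (l'.map Subtype.val).sum = φ at *
    have hch := Cfsg.Agent.Lib.Helper20.isCharacter_of_isIrrCharacter χ.2
    obtain ⟨n, hn⟩ := Cfsg.Agent.Lib.Helper20.isCharacter_classInner_nat' hch hφ
    obtain ⟨N, hN⟩ := Cfsg.Agent.Lib.Helper20.isCharacter_classInner_nat' hφ hφ
    have hn' : classInner φ (χ : G → ℂ) = n := by
      rw [← Cfsg.Agent.Lib.Helper20.classInner_conj_symm, hn]; simp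
    rw [Cfsg.Agent.Lib.Helper20.classInner_add_left, Cfsg.Agent.Lib.Helper20.classInner_add_right,
      Cfsg.Agent.Lib.Helper20.classInner_add_right, Cfsg.Agent.Lib.Helper20.classInner_irr_self χ.2, hn, hn', hN] at h
    have h2 : 1 + n + (n + N) = 2 := by exact_mod_cast h
    have hn0 : n = 0 := by omega
    have hN1 : N = 1 := by omega
    have hirr : IsIrrCharacter G φ := Cfsg.Agent.Lib.Helper20.isIrrCharacter_of_classInner_self hφ (by rw [hN, hN1]; simp)
    refine ⟨χ, φ, χ.2, hirr, ?_, rfl⟩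
    intro e
    rw [← e, Cfsg.Agent.Lib.Helper20.classInner_irr_self χ.2, hn0] at hn
    norm_num at hn

theorem exists_prim_addChar' (F : Type*) [Field F] [Finite F] : ∃ ψ : AddChar F ℂ, ψ.IsPrimitive := by
  obtain ⟨ψ, hψ⟩ := (AddChar.exists_apply_ne_zero (α := F) (a := 1)).mpr one_ne_zero
  refine ⟨ψ, AddChar.IsPrimitive.of_ne_one ?_⟩
  rintro rfl
  simp at hψ

theorem two_ne_zero_of_odd_card {F : Type*} [Field F] [Fintype F] (hodd : Odd (Fintype.card F)) :
    (2 : F) ≠ 0 := by
  intro h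
  have hc : ringChar F ∣ 2 := (ringChar.spec F 2).mp (by exact_mod_cast h)
  have hp : (ringChar F).Prime := CharP.char_is_prime F _
  have h22 : ringChar F = 2 := (Nat.prime_dvd_prime_iff_eq hp Nat.prime_two).mp hc
  obtain ⟨k, -, hk⟩ := FiniteField.card F (ringChar F)
  rw [hk, h22] at hodd
  exact (Nat.not_even_iff_odd.mpr hodd) ((Nat.even_pow.mpr ⟨even_two, k.ne_zero⟩))

section

variable {F : Type*} [Field F] [Fintype F] [DecidableEq F] {n : Type*} [Fintype n] [DecidableEq n]

/-- the concrete Heisenberg system -/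
noncomputable def heisSp (ψ : AddChar F ℂ) (hψ : ψ.IsPrimitive) (h2 : (2 : F) ≠ 0) :
    Heis (n ⊕ n → F) (n → F) where
  r := hs ψ
  β v w := ψ (om n F w v)
  mul := hs_mul ψ
  zero := hs_zero ψ
  tr := hs_trace hψ h2
  add_left u v w := by rw [map_add, AddChar.map_add_eq_mul]
  add_right u v w := by rw [map_add, LinearMap.add_apply, AddChar.map_add_eq_mul]
  zero_left w := by rw [map_zero, AddChar.map_zero_eq_one]
  zero_right v := by rw [map_zero, LinearMap.zero_apply, AddChar.map_zero_eq_one]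
  self v := by rw [om_self, AddChar.map_zero_eq_one]
  avg := hs_avg hψ h2

theorem heisSp_inv (ψ : AddChar F ℂ) (hψ : ψ.IsPrimitive) (h2 : (2 : F) ≠ 0)
    (g : symplecticGroup n F) (v w : n ⊕ n → F) :
    (heisSp (n := n) ψ hψ h2).β (g • v) (g • w) = (heisSp (n := n) ψ hψ h2).β v w := by
  show ψ (om n F (g.1 *ᵥ w) (g.1 *ᵥ v)) = ψ (om n F w v)
  rw [sp_om]

theorem heisSp_par (ψ : AddChar F ℂ) (hψ : ψ.IsPrimitive) (h2 : (2 : F) ≠ 0) (v : n ⊕ n → F) :
    PP F n * (heisSp (n := n) ψ hψ h2).r v = (heisSp (n := n) ψ hψ h2).r (-v) * PP F n :=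
  PP_hs ψ v

/-- the Weil representation -/
noncomputable def weilRep (ψ : AddChar F ℂ) (hψ : ψ.IsPrimitive) (h2 : (2 : F) ≠ 0) :
    Representation ℂ (symplecticGroup n F) ((n → F) → ℂ) :=
  (heisSp (n := n) ψ hψ h2).rep (heisSp_inv ψ hψ h2) (PP F n) PP_sq (heisSp_par ψ hψ h2) (PP_key h2)

open Classical in
theorem weil_mul_inv (ψ : AddChar F ℂ) (hψ : ψ.IsPrimitive) (h2 : (2 : F) ≠ 0)
    (g : symplecticGroup n F) :
    (weilRep (n := n) ψ hψ h2).character g * (weilRep (n := n) ψ hψ h2).character g⁻¹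
      = ((Finset.univ.filter fun v : n ⊕ n → F => g • v = v).card : ℂ) := by
  unfold weilRep
  rw [Heis.rep_character, Heis.rep_character]
  convert Heis.trace_W_mul _ (heisSp_inv ψ hψ h2) (PP F n) PP_sq (heisSp_par ψ hψ h2) (PP_key h2) g

theorem card_orbits_sp [Nonempty n] :
    Nat.card (MulAction.orbitRel.Quotient (symplecticGroup n F) (n ⊕ n → F)) = 2 := by
  classical
  let f : MulAction.orbitRel.Quotient (symplecticGroup n F) (n ⊕ n → F) → Bool :=
    Quotient.lift (fun v => decide (v = 0)) (by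
      intro a b hab
      obtain ⟨g, hg⟩ := hab
      have hg' : g • b = a := hg
      simp only [decide_eq_decide]
      rw [← hg']
      exact smul_eq_zero_iff_eq g)
  have hinj : Function.Injective f := by
    intro a b
    induction a using Quotient.inductionOn with | _ a => ?_
    induction b using Quotient.inductionOn with | _ b => ?_
    intro hab
    have hab' : decide (a = 0) = decide (b = 0) := hab
    rw [decide_eq_decide] at hab'
    apply Quotient.sound
    by_cases ha : a = 0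
    · rw [ha, hab'.mp ha]
    · have hb : b ≠ 0 := fun h => ha (hab'.mpr h)
      obtain ⟨g, hg⟩ := sp_transitive hb ha
      exact ⟨g, hg⟩
  have hsurj : Function.Surjective f := by
    intro b
    cases b
    · obtain ⟨i⟩ := ‹Nonempty n›
      refine ⟨Quotient.mk _ (Pi.single (Sum.inl i) 1), ?_⟩
      show decide (_ = _) = false
      rw [decide_eq_false_iff_not]
      intro h
      have := congrFun h (Sum.inl i)
      simp at this
    · exact ⟨Quotient.mk _ 0, by show decide (_ = _) = true; simp⟩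
  rw [Nat.card_congr (Equiv.ofBijective f ⟨hinj, hsurj⟩)]
  simp

theorem weil_norm [Nonempty n] [Fintype (symplecticGroup n F)] (ψ : AddChar F ℂ)
    (hψ : ψ.IsPrimitive) (h2 : (2 : F) ≠ 0) :
    classInner (weilRep (n := n) ψ hψ h2).character (weilRep (n := n) ψ hψ h2).character = 2 := by
  classical
  unfold classInner
  have h1 : ∀ g : symplecticGroup n F, (weilRep (n := n) ψ hψ h2).character g
      * conj ((weilRep (n := n) ψ hψ h2).character g)
      = (Nat.card (MulAction.fixedBy (n ⊕ n → F) g) : ℂ) := by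
    intro g
    rw [← Cfsg.Agent.Lib.Helper20.char_inv, weil_mul_inv]
    congr 1
    rw [← Fintype.card_subtype, ← Nat.card_eq_fintype_card]
    rfl
  rw [Finset.sum_congr rfl fun g _ => h1 g, Cfsg.Agent.Lib.Helper4.sum_card_fixedBy, card_orbits_sp]
  have : (Nat.card (symplecticGroup n F) : ℂ) ≠ 0 := by
    exact_mod_cast Nat.card_pos.ne'
  field_simp
  norm_num

/-- the central involution `-1` -/
def negOne (n : Type*) [Fintype n] [DecidableEq n] (F : Type*) [Field F] : symplecticGroup n F :=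
  ⟨-1, SymplecticGroup.neg_mem (one_mem _)⟩

omit [Fintype F] [DecidableEq F] in
theorem negOne_smul (v : n ⊕ n → F) : negOne n F • v = -v := by
  show (-1 : Matrix (n ⊕ n) (n ⊕ n) F) *ᵥ v = -v
  rw [Matrix.neg_mulVec, Matrix.one_mulVec]

omit [Fintype F] [DecidableEq F] in
theorem negOne_mul_self : negOne n F * negOne n F = 1 := by
  apply Subtype.ext
  show (-1 : Matrix (n ⊕ n) (n ⊕ n) F) * (-1) = 1
  rw [neg_mul_neg, one_mul]

omit [Fintype F] [DecidableEq F] in
theorem negOne_mem_center : negOne n F ∈ Subgroup.center (symplecticGroup n F) := by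
  rw [Subgroup.mem_center_iff]
  intro g
  apply Subtype.ext
  show g.1 * (-1 : Matrix (n ⊕ n) (n ⊕ n) F) = (-1) * g.1
  rw [mul_neg, neg_mul, mul_one, one_mul]

theorem irr_central_sq {G : Type*} [Group G] {χ : G → ℂ} (h : IsIrrCharacter G χ) {z : G}
    (hz : z ∈ Subgroup.center G) (hzz : z * z = 1) : χ z = χ 1 ∨ χ z = -χ 1 := by
  have h1 := Cfsg.Agent.Lib.Helper79.IsIrrCharacter.mul_central h z hz z
  have h0 := Cfsg.Agent.Lib.Helper79.IsIrrCharacter.one_ne_zero h
  rw [hzz] at h1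
  apply mul_self_eq_mul_self_iff.mp
  field_simp at h1
  linear_combination -h1

end

theorem exists_weil_irr {F : Type*} [Field F] [Fintype F] [DecidableEq F] (n : ℕ) (hn : 1 ≤ n)
    (hodd : Odd (Fintype.card F)) :
    ∃ χ : symplecticGroup (Fin n) F → ℂ, IsIrrCharacter (symplecticGroup (Fin n) F) χ ∧
      χ 1 = (((Fintype.card F ^ n - 1) / 2 : ℕ) : ℂ) := by
  classical
  have h2 := two_ne_zero_of_odd_card hodd
  obtain ⟨ψ, hψ⟩ := exists_prim_addChar' F
  have : Nonempty (Fin n) := ⟨⟨0, hn⟩⟩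
  have : Fintype (symplecticGroup (Fin n) F) := Fintype.ofFinite _
  set ω := (weilRep (n := Fin n) ψ hψ h2).character with hω
  have hchar : IsCharacter (symplecticGroup (Fin n) F) ω :=
    Cfsg.Agent.Lib.Helper20.isCharacter_of_rep _
  obtain ⟨χ₁, χ₂, h₁, h₂, -, hsum⟩ := two_irr_of_norm_two' hchar (weil_norm ψ hψ h2)
  obtain ⟨d₁, -, hd₁⟩ := Cfsg.Agent.Lib.Helper32.irr_apply_one h₁
  obtain ⟨d₂, -, hd₂⟩ := Cfsg.Agent.Lib.Helper32.irr_apply_one h₂
  have hω1 : ω 1 = ((Fintype.card F ^ n : ℕ) : ℂ) := by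
    rw [hω, Representation.char_one, Module.finrank_fintype_fun_eq_card, Fintype.card_fun,
      Fintype.card_fin]
  have hN : d₁ + d₂ = Fintype.card F ^ n := by
    have := congrFun hsum 1
    rw [Pi.add_apply, hω1, hd₁, hd₂] at this
    exact_mod_cast this.symm
  have hzinv : (negOne (Fin n) F)⁻¹ = negOne (Fin n) F := inv_eq_of_mul_eq_one_right negOne_mul_self
  have hωz : ω (negOne (Fin n) F) * ω (negOne (Fin n) F) = 1 := by
    have := weil_mul_inv (n := Fin n) ψ hψ h2 (negOne (Fin n) F)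
    rw [hzinv] at this
    rw [hω, this]
    have hf : (Finset.univ.filter fun v : Fin n ⊕ Fin n → F => negOne (Fin n) F • v = v) = {0} := by
      ext v
      simp only [Finset.mem_filter, Finset.mem_univ, true_and, Finset.mem_singleton, negOne_smul]
      constructor
      · intro h
        funext i
        have hi := congrFun h i
        rw [Pi.neg_apply, neg_eq_iff_add_eq_zero, ← two_mul] at hi
        exact (mul_eq_zero.mp hi).resolve_left h2
      · rintro rfl; simp
    rw [hf]; simp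
  have hq3 : 3 ≤ Fintype.card F ^ n := by
    have h1 : 1 < Fintype.card F := Fintype.one_lt_card
    have h3 : 3 ≤ Fintype.card F := by
      obtain ⟨k, hk⟩ := hodd
      omega
    calc 3 ≤ Fintype.card F := h3
      _ = Fintype.card F ^ 1 := (pow_one _).symm
      _ ≤ Fintype.card F ^ n := Nat.pow_le_pow_right (by omega) hn
  have hoddN : Odd (Fintype.card F ^ n) := hodd.pow
  obtain ⟨k, hk⟩ := hoddN
  have hk' : (Fintype.card F ^ n - 1) / 2 = k := by omega
  rw [hk']
  rw [hk] at hN hq3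
  have hz := congrFun hsum (negOne (Fin n) F)
  rw [Pi.add_apply] at hz
  rw [hz] at hωz
  rcases irr_central_sq h₁ negOne_mem_center negOne_mul_self with e₁ | e₁ <;>
  rcases irr_central_sq h₂ negOne_mem_center negOne_mul_self with e₂ | e₂ <;>
  rw [e₁, e₂, hd₁, hd₂] at hωz
  · exfalso
    have : (d₁ + d₂) * (d₁ + d₂) = 1 := by exact_mod_cast hωz
    rw [hN] at this
    nlinarith
  · have h3 : ((d₁ : ℤ) - d₂) * ((d₁ : ℤ) - d₂) = 1 := by
      have : (((d₁ : ℤ) - d₂) * ((d₁ : ℤ) - d₂) : ℂ) = ((1 : ℤ) : ℂ) := by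
        push_cast; linear_combination hωz
      exact_mod_cast this
    have h4 : ((d₁ : ℤ) - d₂) = 1 ∨ ((d₁ : ℤ) - d₂) = -1 := by
      have : ((d₁ : ℤ) - d₂ - 1) * ((d₁ : ℤ) - d₂ + 1) = 0 := by linear_combination h3
      rcases mul_eq_zero.mp this with h | h
      · left; omega
      · right; omega
    rcases h4 with h4 | h4
    · refine ⟨χ₂, h₂, ?_⟩
      rw [hd₂]
      congr 1
      omega
    · refine ⟨χ₁, h₁, ?_⟩
      rw [hd₁]
      congr 1
      omega
  · have h3 : ((d₁ : ℤ) - d₂) * ((d₁ : ℤ) - d₂) = 1 := by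
      have : (((d₁ : ℤ) - d₂) * ((d₁ : ℤ) - d₂) : ℂ) = ((1 : ℤ) : ℂ) := by
        push_cast; linear_combination hωz
      exact_mod_cast this
    have h4 : ((d₁ : ℤ) - d₂) = 1 ∨ ((d₁ : ℤ) - d₂) = -1 := by
      have : ((d₁ : ℤ) - d₂ - 1) * ((d₁ : ℤ) - d₂ + 1) = 0 := by linear_combination h3
      rcases mul_eq_zero.mp this with h | h
      · left; omega
      · right; omega
    rcases h4 with h4 | h4
    · refine ⟨χ₂, h₂, ?_⟩
      rw [hd₂]
      congr 1
      omega
    · refine ⟨χ₁, h₁, ?_⟩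
      rw [hd₁]
      congr 1
      omega
  · exfalso
    have : ((d₁ + d₂) * (d₁ + d₂) : ℂ) = 1 := by linear_combination hωz
    have : (d₁ + d₂) * (d₁ + d₂) = 1 := by exact_mod_cast this
    rw [hN] at this
    nlinarith

/-- existence of an irreducible representation of degree `(q^n-1)/2` -/
theorem exists_weil_rep {F : Type*} [Field F] [Fintype F] [DecidableEq F] (n : ℕ) (hn : 1 ≤ n)
    (hodd : Odd (Fintype.card F)) :
    ∃ ρ : Representation ℂ (symplecticGroup (Fin n) F)
      (Fin ((Fintype.card F ^ n - 1) / 2) → ℂ), ρ.IsIrreducible := by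
  obtain ⟨χ, ⟨k, ρ, hρ, rfl⟩, h1⟩ := exists_weil_irr n hn hodd
  rw [Representation.char_one, Module.finrank_fintype_fun_eq_card, Fintype.card_fin] at h1
  have : k = (Fintype.card F ^ n - 1) / 2 := by exact_mod_cast h1
  subst this
  exact ⟨ρ, hρ⟩

end Cfsg.Agent.Lib.Helper44
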