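import Cfsg.Agent.Lib.Helper44.WeilBound1
import Cfsg.Agent.Lib.Helper44.WeilBound2
import Cfsg.Agent.Lib.Helper20.CharOrth

/-!
# Lower bound `(q^n-1)/2` for the nonlinear irreducible complex representations of `Sp_{2n}(q)`
-/

set_option autoImplicit false

namespace Cfsg.Agent.Lib.Helper44

open Matrix Cfsg
open scoped ComplexConjugate

theorem two_ne_zero_of_odd_card' {F : Type*} [Field F] [Fintype F] (hodd : Odd (Fintype.card F)) :
    (2 : F) ≠ 0 := by
  intro h
  have hc : ringChar F ∣ 2 := (ringChar.spec F 2).mp (by exact_mod_cast h)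
  have hp : (ringChar F).Prime := CharP.char_is_prime F _
  have h22 : ringChar F = 2 := (Nat.prime_dvd_prime_iff_eq hp Nat.prime_two).mp hc
  obtain ⟨k, -, hk⟩ := FiniteField.card F (ringChar F)
  rw [hk, h22] at hodd
  exact (Nat.not_even_iff_odd.mpr hodd) ((Nat.even_pow.mpr ⟨even_two, k.ne_zero⟩))

theorem sp_degree_bound {F : Type*} [Field F] [Fintype F] [DecidableEq F] (n : ℕ) (hn : 2 ≤ n)
    (hodd : Odd (Fintype.card F)) (k : ℕ)
    (ρ : Representation ℂ (symplecticGroup (Fin n) F) (Fin k → ℂ)) (hρ : ρ.IsIrreducible)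
    (hk : 2 ≤ k) : (Fintype.card F ^ n - 1) / 2 ≤ k := by
  classical
  obtain ⟨m, rfl⟩ : ∃ m, n = m + 1 := ⟨n - 1, by omega⟩
  have h2 := two_ne_zero_of_odd_card' hodd
  let R : symplecticGroup (Fin (m + 1)) F →* Matrix (Fin k) (Fin k) ℂ :=
    ((LinearMap.toMatrixAlgEquiv' (R := ℂ) (n := Fin k)).toAlgHom.toRingHom.toMonoidHom).comp ρ
  obtain ⟨W, hWk, hsym, hcl, htriv⟩ := exists_sym_weights h2 R
  by_cases h0 : ∀ C ∈ W, C = 0
  · exfalso
    have hR : ∀ g, R g = 1 := trivial_of_siegel R (htriv h0)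
    have hρ1 : ∀ g, ρ g = 1 := fun g =>
      (LinearMap.toMatrixAlgEquiv' (R := ℂ) (n := Fin k)).injective (by rw [map_one]; exact hR g)
    have : Fintype (symplecticGroup (Fin (m + 1)) F) := Fintype.ofFinite _
    have hirr : IsIrrCharacter (symplecticGroup (Fin (m + 1)) F) ρ.character := ⟨k, ρ, hρ, rfl⟩
    have hnorm := Cfsg.Agent.Lib.Helper20.classInner_irr_self hirr
    have hch : ∀ g, ρ.character g = k := by
      intro g
      show LinearMap.trace ℂ _ (ρ g) = k
      rw [hρ1, LinearMap.trace_one, Module.finrank_fintype_fun_eq_card, Fintype.card_fin]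
    unfold classInner at hnorm
    simp only [hch, Complex.conj_natCast, Finset.sum_const, Finset.card_univ, nsmul_eq_mul] at hnorm
    rw [Nat.card_eq_fintype_card] at hnorm
    have hG : (Fintype.card (symplecticGroup (Fin (m + 1)) F) : ℂ) ≠ 0 := by
      exact_mod_cast Fintype.card_ne_zero
    rw [inv_mul_cancel_left₀ hG] at hnorm
    have : k * k = 1 := by exact_mod_cast hnorm
    nlinarith
  · push Not at h0
    obtain ⟨C, hC, hC0⟩ := h0
    exact (card_congruence_closed m W hcl hodd h2 (by omega) hsym hC hC0).trans hWk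

end Cfsg.Agent.Lib.Helper44
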